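import Mathlib
import Cfsg.Agent.SLTwoPres.Unipotent

/-!
A bound on the order of a group generated by a torus element `h` and a root element `u` whose
commutators lie in a central layer generated by the conjugates of `z`.
-/

set_option autoImplicit false
set_option linter.style.haveILetI false

open scoped commutatorElement

namespace CfsgLib.SUThreePres

section Generic

/-- A group generated by `k` commuting elements of order dividing `p` has order at most `p ^ k`. -/
theorem finite_and_card_le_pow {Q : Type*} [Group Q] {p k : ℕ} (hp : 0 < p) (g : Fin k → Q)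
    (hgen : Subgroup.closure (Set.range g) = ⊤) (hc : ∀ i j, Commute (g i) (g j))
    (hpow : ∀ i, g i ^ p = 1) : Finite Q ∧ Nat.card Q ≤ p ^ k := by
  classical
  letI : CommGroup Q := { (inferInstance : Group Q) with
    mul_comm := fun b c => by
      have hb : b ∈ Subgroup.closure (Set.range g) := hgen ▸ Subgroup.mem_top b
      have hcc : c ∈ Subgroup.closure (Set.range g) := hgen ▸ Subgroup.mem_top c
      induction hb, hcc using Subgroup.closure_induction₂ with
      | mem x y hx hy => obtain ⟨m, rfl⟩ := hx; obtain ⟨n, rfl⟩ := hy; exact hc m n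
      | one_left x _ => rw [one_mul, mul_one]
      | one_right x _ => rw [one_mul, mul_one]
      | mul_left x y z _ _ _ h1 h2 => exact Commute.mul_left h1 h2
      | mul_right y z x _ _ _ h1 h2 => exact Commute.mul_right h1 h2
      | inv_left x y _ _ h => exact Commute.inv_left h
      | inv_right x y _ _ h => exact Commute.inv_right h }
  let f : (Fin k → Fin p) → Q := fun a => ∏ i, g i ^ (a i : ℕ)
  have hp' : (p : ℤ) ≠ 0 := by exact_mod_cast hp.ne'
  have hsurj : Function.Surjective f := by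
    intro y
    have hy : y ∈ Subgroup.closure (Set.range g) := hgen ▸ Subgroup.mem_top y
    obtain ⟨a, ha⟩ := Subgroup.mem_closure_range_iff.mp hy
    refine ⟨fun i => ⟨(a i % p).toNat, ?_⟩, ?_⟩
    · have h2 := Int.emod_lt_of_pos (a i) (show (0 : ℤ) < p by exact_mod_cast hp)
      have h1 := Int.emod_nonneg (a i) hp'
      omega
    · rw [ha, Finsupp.prod_fintype _ _ (fun _ => zpow_zero _)]
      refine Finset.prod_congr rfl fun i _ => ?_
      show g i ^ (a i % p).toNat = g i ^ a i
      rw [← zpow_natCast (g i), Int.toNat_of_nonneg (Int.emod_nonneg _ hp')]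
      conv_rhs => rw [← Int.mul_ediv_add_emod (a i) p, zpow_add, zpow_mul, zpow_natCast, hpow,
        one_zpow, one_mul]
  refine ⟨Finite.of_surjective f hsurj, (Nat.card_le_card_of_surjective f hsurj).trans ?_⟩
  simp

end Generic

variable {P : Type*} [Group P]

/-- Conjugation by a power. -/
def cj (h : P) (n : ℕ) (x : P) : P := h ^ n * x * (h ^ n)⁻¹

theorem cj_zero (h x : P) : cj h 0 x = x := by simp [cj]

theorem cj_cj (h x : P) (m n : ℕ) : cj h m (cj h n x) = cj h (m + n) x := by
  simp [cj, pow_add, mul_assoc]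

theorem cj_mul (h x y : P) (n : ℕ) : cj h n (x * y) = cj h n x * cj h n y := by
  simp [cj, mul_assoc]

theorem cj_pow (h x : P) (n k : ℕ) : cj h n (x ^ k) = cj h n x ^ k := by
  simp [cj, conj_pow]

theorem cj_commutator (h x y : P) (n : ℕ) : cj h n ⁅x, y⁆ = ⁅cj h n x, cj h n y⁆ := by
  simp [cj, commutatorElement_def, mul_assoc]

theorem Commute.cj {x y : P} (hxy : Commute x y) (h : P) (n : ℕ) :
    Commute (cj h n x) (cj h n y) := (Commute.conj_iff (h ^ n)).mpr hxy

theorem cj_mem_of_one {h : P} {K : Subgroup P} (h1 : ∀ x ∈ K, cj h 1 x ∈ K) (n : ℕ) :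
    ∀ x ∈ K, cj h n x ∈ K := by
  induction n with
  | zero => intro x hx; rwa [cj_zero]
  | succ n ih => intro x hx; rw [← cj_cj]; exact ih _ (h1 x hx)

theorem cj_mem_closure {h : P} {n : ℕ} {S : Set P} {K : Subgroup P} (hS : ∀ x ∈ S, cj h n x ∈ K) :
    ∀ x ∈ Subgroup.closure S, cj h n x ∈ K := fun x hx => by
  have hle : Subgroup.closure S ≤ K.comap (MulAut.conj (h ^ n)).toMonoidHom :=
    (Subgroup.closure_le _).mpr hS
  exact hle hx

/-- The layer generated by the conjugates of `z`. -/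
def zSub (z h : P) (e α : ℕ) : Subgroup P :=
  Subgroup.closure (Set.range fun i : Fin e => cj h (α * i) z)

/-- The root group generated by the conjugates of `u` and `z`. -/
def uSub (u z h : P) (e α : ℕ) : Subgroup P :=
  Subgroup.closure (Set.range (fun i : Fin (2 * e) => cj h (α * i) u) ∪
    Set.range fun i : Fin e => cj h (α * i) z)

/-- The hypotheses on the central layer. -/
structure ZData (z h : P) (p e α : ℕ) : Prop where
  z_pow : z ^ p = 1
  z_comm : ∀ n, Commute z (cj h n z)
  z_alpha : cj h (α * e) z ∈ zSub z h e α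
  z_one : cj h 1 z ∈ zSub z h e α

/-- All the hypotheses. -/
structure BorelData (u z h : P) (p e α N : ℕ) : Prop extends ZData z h p e α where
  p_pos : 0 < p
  e_pos : 0 < e
  N_pos : 0 < N
  h_pow : h ^ N = 1
  uz : ∀ i < e, Commute u (cj h (α * i) z)
  u_pow : u ^ p ∈ zSub z h e α
  uu : ∀ i < 2 * e, ⁅u, cj h (α * i) u⁆ ∈ zSub z h e α
  u_alpha : cj h (α * (2 * e)) u ∈ uSub u z h e α
  u_one : cj h 1 u ∈ uSub u z h e α

variable {u z h : P} {p e α N : ℕ}

theorem zSub_le_uSub : zSub z h e α ≤ uSub u z h e α :=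
  Subgroup.closure_mono Set.subset_union_right

namespace ZData

variable (D : ZData z h p e α)
include D

theorem cj_alpha_zSub : ∀ x ∈ zSub z h e α, cj h α x ∈ zSub z h e α := by
  refine cj_mem_closure ?_
  rintro _ ⟨i, rfl⟩
  show cj h α (cj h (α * i) z) ∈ _
  rw [cj_cj, show α + α * i = α * (i + 1) by ring]
  rcases lt_or_eq_of_le (Nat.succ_le_of_lt i.2) with hlt | heq
  · exact Subgroup.subset_closure ⟨⟨i + 1, hlt⟩, rfl⟩
  · rw [show (i : ℕ) + 1 = e from heq]; exact D.z_alpha

theorem cj_mul_zSub (i : ℕ) : ∀ x ∈ zSub z h e α, cj h (α * i) x ∈ zSub z h e α := by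
  induction i with
  | zero => intro x hx; rwa [mul_zero, cj_zero]
  | succ i ih =>
    intro x hx
    rw [show α * (i + 1) = α * i + α by ring, ← cj_cj]
    exact ih _ (D.cj_alpha_zSub x hx)

theorem cj_zSub (n : ℕ) : ∀ x ∈ zSub z h e α, cj h n x ∈ zSub z h e α := by
  refine cj_mem_of_one (cj_mem_closure ?_) n
  rintro _ ⟨i, rfl⟩
  show cj h 1 (cj h (α * i) z) ∈ _
  rw [cj_cj, add_comm, ← cj_cj]
  exact D.cj_mul_zSub i _ D.z_one

theorem finite_zSub (hp : 0 < p) : Finite (zSub z h e α) ∧ Nat.card (zSub z h e α) ≤ p ^ e := by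
  refine finite_and_card_le_pow hp
    (fun i => ⟨cj h (α * i) z, Subgroup.subset_closure ⟨i, rfl⟩⟩) ?_ (fun i j => ?_) (fun i => ?_)
  · refine Subgroup.map_injective (zSub z h e α).subtype_injective ?_
    rw [MonoidHom.map_closure, ← MonoidHom.range_eq_map, Subgroup.range_subtype, ← Set.range_comp]
    rfl
  · apply Subtype.ext
    show cj h (α * i) z * cj h (α * j) z = cj h (α * j) z * cj h (α * i) z
    rcases le_total (i : ℕ) j with hij | hij
    · obtain ⟨k, hk⟩ := Nat.exists_eq_add_of_le hij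
      rw [hk, show α * (i + k) = α * i + α * k by ring, ← cj_cj]
      exact (Commute.cj (D.z_comm _) h _).eq
    · obtain ⟨k, hk⟩ := Nat.exists_eq_add_of_le hij
      rw [hk, show α * (j + k) = α * j + α * k by ring, ← cj_cj]
      exact (Commute.cj (D.z_comm _) h _).symm.eq
  · apply Subtype.ext
    show cj h (α * i) z ^ p = 1
    rw [← cj_pow, D.z_pow, cj]
    simp

/-- The centralisation of the layer by `u` from one commutation. -/
theorem commute_of_crw (hN : h ^ N = 1) (hN0 : 0 < N) {β : ℕ} (hfix : cj h β z = z) (huz : Commute u z)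
    (hrel : ∃ y ∈ zSub z h e α, cj h α u = u * cj h β u * y)
    (hzc : ∀ x ∈ zSub z h e α, ∀ y ∈ zSub z h e α, Commute x y) (he : 0 < e) (i : ℕ) :
    Commute u (cj h (α * i) z) := by
  have hz : z ∈ zSub z h e α := Subgroup.subset_closure ⟨⟨0, he⟩, by simp [cj_zero]⟩
  have hback : ∀ j, Commute u ((h ^ α)⁻¹ ^ j * z * ((h ^ α)⁻¹ ^ j)⁻¹) ∧
      (h ^ α)⁻¹ ^ j * z * ((h ^ α)⁻¹ ^ j)⁻¹ ∈ zSub z h e α ∧
      cj h β ((h ^ α)⁻¹ ^ j * z * ((h ^ α)⁻¹ ^ j)⁻¹) = (h ^ α)⁻¹ ^ j * z * ((h ^ α)⁻¹ ^ j)⁻¹ := by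
    intro j
    induction j with
    | zero => simpa [hz] using ⟨huz, hfix⟩
    | succ j ih =>
      obtain ⟨hc, hm, hf⟩ := ih
      set x := (h ^ α)⁻¹ ^ j * z * ((h ^ α)⁻¹ ^ j)⁻¹ with hx
      have hstep : (h ^ α)⁻¹ ^ (j + 1) * z * ((h ^ α)⁻¹ ^ (j + 1))⁻¹ =
          (h ^ α)⁻¹ * x * h ^ α := by rw [hx, pow_succ']; group
      obtain ⟨y, hy, hrel⟩ := hrel
      have hcx : Commute (cj h β u) x := hf ▸ Commute.cj hc h β
      have hca : Commute (cj h α u) x := by
        rw [hrel]
        exact (hc.mul_left hcx).mul_left (hzc y hy x hm)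
      rw [hstep]
      refine ⟨?_, ?_, ?_⟩
      · have := (Commute.conj_iff (h ^ α)⁻¹).mpr hca
        simpa [cj, mul_assoc] using this
      · rw [show (h ^ α)⁻¹ * x * h ^ α = cj h (α * (N - 1)) x by
          rw [cj, pow_mul]
          have e1 : (h ^ α) ^ (N - 1) = (h ^ α)⁻¹ := by
            refine eq_inv_of_mul_eq_one_left ?_
            rw [← pow_succ, Nat.sub_add_cancel hN0, ← pow_mul, mul_comm, pow_mul, hN, one_pow]
          rw [e1, inv_inv]]
        exact D.cj_mul_zSub _ _ hm
      · have e2 : cj h β ((h ^ α)⁻¹ * x * h ^ α) = (h ^ α)⁻¹ * cj h β x * h ^ α := by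
          have e3 : Commute (h ^ β) (h ^ α)⁻¹ := (Commute.pow_pow_self h β α).inv_right
          simp only [cj]
          calc h ^ β * ((h ^ α)⁻¹ * x * h ^ α) * (h ^ β)⁻¹
              = (h ^ β * (h ^ α)⁻¹) * x * ((h ^ β * (h ^ α)⁻¹))⁻¹ := by group
            _ = ((h ^ α)⁻¹ * h ^ β) * x * (((h ^ α)⁻¹ * h ^ β))⁻¹ := by rw [e3.eq]
            _ = _ := by group
        rw [e2, hf]
  have h1 := (hback ((N - 1) * i)).1
  have e1 : (h ^ α)⁻¹ ^ ((N - 1) * i) = h ^ (α * i) := by
    rw [inv_pow]
    refine inv_eq_of_mul_eq_one_right ?_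
    rw [← pow_mul, ← pow_add,
      show α * ((N - 1) * i) + α * i = N * (α * i) by
        obtain ⟨M, rfl⟩ : ∃ M, N = M + 1 := ⟨N - 1, by omega⟩
        simp only [Nat.add_sub_cancel]; ring, pow_mul, hN, one_pow]
  rwa [e1] at h1

theorem commute_zSub (x : P) (hx : x ∈ zSub z h e α) (y : P) (hy : y ∈ zSub z h e α) :
    Commute x y := by
  induction hx, hy using Subgroup.closure_induction₂ with
  | mem a b ha hb =>
    obtain ⟨i, rfl⟩ := ha
    obtain ⟨j, rfl⟩ := hb
    show Commute (cj h (α * i) z) (cj h (α * j) z)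
    rcases le_total (i : ℕ) j with hij | hij
    · obtain ⟨k, hk⟩ := Nat.exists_eq_add_of_le hij
      rw [hk, show α * (i + k) = α * i + α * k by ring, ← cj_cj]
      exact Commute.cj (D.z_comm _) h _
    · obtain ⟨k, hk⟩ := Nat.exists_eq_add_of_le hij
      rw [hk, show α * (j + k) = α * j + α * k by ring, ← cj_cj]
      exact (Commute.cj (D.z_comm _) h _).symm
  | one_left x _ => exact Commute.one_left x
  | one_right x _ => exact Commute.one_right x
  | mul_left x y z _ _ _ h1 h2 => exact h1.mul_left h2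
  | mul_right y z x _ _ _ h1 h2 => exact h1.mul_right h2
  | inv_left x y _ _ h => exact h.inv_left
  | inv_right x y _ _ h => exact h.inv_right

/-- The commutators from the relation of Campbell, Robertson and Williams. -/
theorem commutator_of_crw (hN : h ^ N = 1) (hN0 : 0 < N) (he : 0 < e) {β : ℕ}
    (huz : ∀ i < e, Commute u (cj h (α * i) z))
    (hrel : ∃ y ∈ zSub z h e α, cj h α u = u * cj h β u * y)
    (hcomm : ⁅u, cj h β u⁆ ∈ zSub z h e α) (i : ℕ) :
    ⁅u, cj h (α * i) u⁆ ∈ zSub z h e α := by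
  set Z := zSub z h e α with hZ
  set H := Subgroup.closure ({u, h} : Set P) ⊔ Z with hH
  have hu : u ∈ H := Subgroup.mem_sup_left (Subgroup.subset_closure (by simp))
  have hh : h ∈ H := Subgroup.mem_sup_left (Subgroup.subset_closure (by simp))
  have hnorm : H ≤ Subgroup.normalizer (Z : Set P) := by
    refine sup_le ((Subgroup.closure_le _).mpr ?_) Subgroup.le_normalizer
    rintro g (rfl | rfl)
    · have hc : ∀ x ∈ Z, Commute g x := by
        intro x hx
        induction hx using Subgroup.closure_induction with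
        | mem x hx => obtain ⟨j, rfl⟩ := hx; exact huz j j.2
        | one => exact Commute.one_right g
        | mul x y _ _ h1 h2 => exact h1.mul_right h2
        | inv x _ h1 => exact h1.inv_right
      rw [SetLike.mem_coe, Subgroup.mem_normalizer_iff]
      refine fun x => ⟨fun hx => ?_, fun hx => ?_⟩
      · rw [(hc x hx).eq, mul_inv_cancel_right]; exact hx
      · have e1 : g⁻¹ * (g * x * g⁻¹) * g = g * x * g⁻¹ := by
          rw [((hc _ hx).inv_left).eq, inv_mul_cancel_right]
        rw [show x = g⁻¹ * (g * x * g⁻¹) * g by group, e1]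
        exact hx
    · rw [SetLike.mem_coe, Subgroup.mem_normalizer_iff]
      refine fun x => ⟨fun hx => ?_, fun hx => ?_⟩
      · have := D.cj_zSub 1 x hx
        rwa [cj, pow_one] at this
      · have h1 := D.cj_zSub (N - 1) _ hx
        have e1 : g ^ (N - 1) = g⁻¹ := by
          refine eq_inv_of_mul_eq_one_left ?_
          rw [← pow_succ, Nat.sub_add_cancel hN0, hN]
        rw [cj, e1] at h1
        simpa [mul_assoc] using h1
  haveI : (Z.subgroupOf H).Normal :=
    (Subgroup.normal_subgroupOf_iff_le_normalizer le_sup_right).mpr hnorm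
  set π := QuotientGroup.mk' (Z.subgroupOf H) with hπ
  set U : H := ⟨u, hu⟩
  set T : H := ⟨h, hh⟩
  have hmem : ∀ x : H, π x = 1 ↔ (x : P) ∈ Z := fun x =>
    (QuotientGroup.eq_one_iff x).trans Subgroup.mem_subgroupOf
  have hA : π T ^ α * π U * (π T ^ α)⁻¹ = π U * (π T ^ β * π U * (π T ^ β)⁻¹) := by
    obtain ⟨y, hy, hrel⟩ := hrel
    simp only [← map_pow, ← map_inv, ← map_mul]
    refine (QuotientGroup.eq.mpr (Subgroup.mem_subgroupOf.mpr ?_)).symm
    show (u * (h ^ β * u * (h ^ β)⁻¹))⁻¹ * (h ^ α * u * (h ^ α)⁻¹) ∈ Z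
    rw [show h ^ α * u * (h ^ α)⁻¹ = u * (h ^ β * u * (h ^ β)⁻¹) * y from hrel,
      inv_mul_cancel_left]
    exact hy
  have hB : Commute (π U) (π T ^ β * π U * (π T ^ β)⁻¹) := by
    rw [← commutatorElement_eq_one_iff_commute]
    simp only [← map_pow, ← map_inv, ← map_mul, ← map_commutatorElement, hmem]
    exact hcomm
  have hfin := CfsgLib.SLTwoPres.commute_crw (π U) (π T) α β hA hB i
  rw [← commutatorElement_eq_one_iff_commute] at hfin
  simp only [← map_pow, ← map_inv, ← map_mul, ← map_commutatorElement, hmem] at hfin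
  rw [cj, pow_mul]
  exact hfin

end ZData

namespace BorelData

variable (D : BorelData u z h p e α N)
include D

theorem mem_uSub : u ∈ uSub u z h e α :=
  Subgroup.subset_closure (Or.inl ⟨⟨0, by have := D.e_pos; omega⟩, by simp [cj_zero]⟩)

theorem z_mem_uSub : z ∈ uSub u z h e α :=
  Subgroup.subset_closure (Or.inr ⟨⟨0, D.e_pos⟩, by simp [cj_zero]⟩)

theorem cj_alpha_uSub : ∀ x ∈ uSub u z h e α, cj h α x ∈ uSub u z h e α := by
  refine cj_mem_closure ?_
  rintro _ (⟨i, rfl⟩ | ⟨i, rfl⟩)
  · show cj h α (cj h (α * i) u) ∈ _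
    rw [cj_cj, show α + α * i = α * (i + 1) by ring]
    rcases lt_or_eq_of_le (Nat.succ_le_of_lt i.2) with hlt | heq
    · exact Subgroup.subset_closure (Or.inl ⟨⟨i + 1, hlt⟩, rfl⟩)
    · rw [show (i : ℕ) + 1 = 2 * e from heq]; exact D.u_alpha
  · exact zSub_le_uSub (D.toZData.cj_alpha_zSub _ (Subgroup.subset_closure ⟨i, rfl⟩))

theorem cj_mul_uSub (i : ℕ) : ∀ x ∈ uSub u z h e α, cj h (α * i) x ∈ uSub u z h e α := by
  induction i with
  | zero => intro x hx; rwa [mul_zero, cj_zero]
  | succ i ih =>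
    intro x hx
    rw [show α * (i + 1) = α * i + α by ring, ← cj_cj]
    exact ih _ (D.cj_alpha_uSub x hx)

theorem cj_uSub (n : ℕ) : ∀ x ∈ uSub u z h e α, cj h n x ∈ uSub u z h e α := by
  refine cj_mem_of_one (cj_mem_closure ?_) n
  rintro _ (⟨i, rfl⟩ | ⟨i, rfl⟩)
  · show cj h 1 (cj h (α * i) u) ∈ _
    rw [cj_cj, add_comm, ← cj_cj]
    exact D.cj_mul_uSub i _ D.u_one
  · exact zSub_le_uSub (D.toZData.cj_zSub 1 _ (Subgroup.subset_closure ⟨i, rfl⟩))

theorem commute_u_zSub : ∀ x ∈ zSub z h e α, Commute u x := by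
  intro x hx
  induction hx using Subgroup.closure_induction with
  | mem x hx => obtain ⟨j, rfl⟩ := hx; exact D.uz j j.2
  | one => exact Commute.one_right u
  | mul x y _ _ h1 h2 => exact h1.mul_right h2
  | inv x _ h1 => exact h1.inv_right

theorem commute_cj_zSub (n : ℕ) : ∀ x ∈ zSub z h e α, Commute (cj h n u) x := by
  intro x hx
  obtain ⟨M, hM⟩ : ∃ M, n + M = N * (n + 1) := ⟨N * (n + 1) - n, by
    have : n + 1 ≤ N * (n + 1) := Nat.le_mul_of_pos_left _ D.N_pos
    omega⟩
  have hxe : cj h n (cj h M x) = x := by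
    rw [cj_cj, hM, cj, pow_mul, D.h_pow, one_pow, inv_one, one_mul, mul_one]
  rw [← hxe]
  exact Commute.cj (D.commute_u_zSub _ (D.toZData.cj_zSub M x hx)) h n

theorem zSub_central : ∀ x ∈ zSub z h e α, ∀ g ∈ uSub u z h e α, Commute g x := by
  intro x hx g hg
  induction hg using Subgroup.closure_induction with
  | mem g hg =>
    rcases hg with ⟨i, rfl⟩ | ⟨i, rfl⟩
    · exact D.commute_cj_zSub _ x hx
    · exact D.toZData.commute_zSub _ (Subgroup.subset_closure ⟨i, rfl⟩) x hx
  | one => exact Commute.one_left x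
  | mul a b _ _ h1 h2 => exact h1.mul_left h2
  | inv a _ h1 => exact h1.inv_left

/-- The order of the root group. -/
theorem finite_uSub : Finite (uSub u z h e α) ∧
    Nat.card (uSub u z h e α) ≤ p ^ (2 * e) * p ^ e := by
  set U := uSub u z h e α with hU
  set Z := zSub z h e α with hZ
  set K := Z.subgroupOf U with hK
  haveI : K.Normal := ⟨fun a ha g => by
    rw [hK, Subgroup.mem_subgroupOf] at ha ⊢
    simp only [Subgroup.coe_mul, Subgroup.coe_inv]
    rw [(D.zSub_central _ ha _ g.2).eq, mul_inv_cancel_right]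
    exact ha⟩
  set π := QuotientGroup.mk' K
  have hone : ∀ x : U, π x = 1 ↔ (x : P) ∈ Z := fun x =>
    (QuotientGroup.eq_one_iff x).trans Subgroup.mem_subgroupOf
  set v : Fin (2 * e) → U := fun i =>
    ⟨cj h (α * i) u, Subgroup.subset_closure (Or.inl ⟨i, rfl⟩)⟩ with hv
  obtain ⟨hZf, hZc⟩ := D.toZData.finite_zSub D.p_pos
  have hgen : Subgroup.closure (Set.range fun i => π (v i)) = ⊤ := by
    rw [eq_top_iff]
    suffices hall : ∀ (g : P) (hg : g ∈ U), π ⟨g, hg⟩ ∈
        Subgroup.closure (Set.range fun i => π (v i)) by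
      intro g _
      obtain ⟨⟨g, hg⟩, rfl⟩ := QuotientGroup.mk'_surjective K g
      exact hall g hg
    intro g hg
    induction hg using Subgroup.closure_induction with
    | mem g hg' =>
      rcases hg' with ⟨i, rfl⟩ | ⟨i, rfl⟩
      · exact Subgroup.subset_closure ⟨i, rfl⟩
      · have h1 : π (⟨cj h (α * i) z, Subgroup.subset_closure (Or.inr ⟨i, rfl⟩)⟩ : U) = 1 :=
          (hone _).mpr (Subgroup.subset_closure ⟨i, rfl⟩)
        exact h1.symm ▸ one_mem _
    | one => rw [show π (⟨1, _⟩ : U) = 1 from map_one π]; exact one_mem _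
    | mul a b ha hb h1 h2 =>
      have h3 := mul_mem h1 h2
      rw [← map_mul] at h3
      exact h3
    | inv a ha h1 =>
      have h3 := inv_mem h1
      rw [← map_inv] at h3
      exact h3
  have hc0 : ∀ x : U, Commute (π ⟨u, D.mem_uSub⟩) (π x) := by
    intro x
    have hx : π x ∈ Subgroup.closure (Set.range fun i => π (v i)) := hgen ▸ Subgroup.mem_top _
    generalize π x = y at hx
    induction hx using Subgroup.closure_induction with
    | mem y hy =>
      obtain ⟨i, rfl⟩ := hy
      rw [← commutatorElement_eq_one_iff_commute, ← map_commutatorElement, hone]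
      exact D.uu i i.2
    | one => exact Commute.one_right _
    | mul a b _ _ h1 h2 => exact h1.mul_right h2
    | inv a _ h1 => exact h1.inv_right
  have hcomm : ∀ i j, Commute (π (v i)) (π (v j)) := by
    have key : ∀ i j : Fin (2 * e), (i : ℕ) ≤ j → Commute (π (v i)) (π (v j)) := by
      intro i j hij
      obtain ⟨k, hk⟩ := Nat.exists_eq_add_of_le hij
      rw [← commutatorElement_eq_one_iff_commute, ← map_commutatorElement, hone]
      show ⁅cj h (α * i) u, cj h (α * j) u⁆ ∈ Z
      rw [hk, show α * (i + k) = α * i + α * k by ring, ← cj_cj, ← cj_commutator]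
      refine D.toZData.cj_zSub _ _ ?_
      have h1 := hc0 ⟨cj h (α * k) u, D.cj_uSub _ _ D.mem_uSub⟩
      rw [← commutatorElement_eq_one_iff_commute, ← map_commutatorElement, hone] at h1
      exact h1
    intro i j
    rcases le_total (i : ℕ) j with h1 | h1
    · exact key i j h1
    · exact (key j i h1).symm
  have hpow : ∀ i, π (v i) ^ p = 1 := by
    intro i
    rw [← map_pow, hone]
    show cj h (α * i) u ^ p ∈ Z
    rw [← cj_pow]
    exact D.toZData.cj_zSub _ _ D.u_pow
  obtain ⟨hQf, hQc⟩ := finite_and_card_le_pow D.p_pos (fun i => π (v i)) hgen hcomm hpow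
  haveI := hQf
  haveI := hZf
  have hZU : Z ≤ U := zSub_le_uSub
  haveI : Finite K := Finite.of_equiv _ (Subgroup.subgroupOfEquivOfLe hZU).symm.toEquiv
  refine ⟨Finite.of_equiv _ (Subgroup.groupEquivQuotientProdSubgroup (s := K)).symm, ?_⟩
  rw [Nat.card_congr (Subgroup.groupEquivQuotientProdSubgroup (s := K)), Nat.card_prod,
    Nat.card_congr (Subgroup.subgroupOfEquivOfLe hZU).toEquiv]
  exact Nat.mul_le_mul hQc hZc

/-- Normal form in the group generated by `u` and `h`. -/
theorem exists_mul_pow {g : P} (hg : g ∈ Subgroup.closure ({u, h} : Set P)) :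
    ∃ x ∈ uSub u z h e α, ∃ k < N, g = x * h ^ k := by
  have hmod : ∀ k, ∃ k' < N, h ^ k = h ^ k' := fun k =>
    ⟨k % N, Nat.mod_lt _ D.N_pos, pow_eq_pow_mod k D.h_pow⟩
  induction hg using Subgroup.closure_induction_right with
  | one => exact ⟨1, one_mem _, 0, D.N_pos, by simp⟩
  | mul_right g _ y hy ih =>
    obtain ⟨x, hx, k, -, rfl⟩ := ih
    rcases hy with h1 | h1 <;> rw [h1]
    · obtain ⟨k', hk', he⟩ := hmod k
      exact ⟨x * cj h k u, mul_mem hx (D.cj_uSub k _ D.mem_uSub), k', hk', by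
        rw [← he, cj]; group⟩
    · obtain ⟨k', hk', he⟩ := hmod (k + 1)
      exact ⟨x, hx, k', hk', by rw [← he, pow_succ, mul_assoc]⟩
  | mul_inv_cancel g _ y hy ih =>
    obtain ⟨x, hx, k, -, rfl⟩ := ih
    rcases hy with h1 | h1 <;> rw [h1]
    · obtain ⟨k', hk', he⟩ := hmod k
      exact ⟨x * (cj h k u)⁻¹, mul_mem hx (inv_mem (D.cj_uSub k _ D.mem_uSub)), k', hk', by
        rw [← he, cj]; group⟩
    · obtain ⟨k', hk', he⟩ := hmod (k + (N - 1))
      refine ⟨x, hx, k', hk', ?_⟩
      rw [← he, pow_add, mul_assoc]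
      congr 2
      exact (eq_inv_of_mul_eq_one_left (by
        rw [← pow_succ, Nat.sub_add_cancel D.N_pos, D.h_pow])).symm

/-- The order of the group generated by `u` and `h`. -/
theorem finite_and_card_le : Finite (Subgroup.closure ({u, h} : Set P)) ∧
    Nat.card (Subgroup.closure ({u, h} : Set P)) ≤ p ^ (2 * e) * p ^ e * N := by
  obtain ⟨hf, hc⟩ := D.finite_uSub
  haveI := hf
  let f : Subgroup.closure ({u, h} : Set P) → uSub u z h e α × Fin N := fun g =>
    have hg := D.exists_mul_pow g.2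
    ⟨⟨hg.choose, hg.choose_spec.1⟩, ⟨hg.choose_spec.2.choose, hg.choose_spec.2.choose_spec.1⟩⟩
  have hinj : Function.Injective f := by
    intro a b hab
    apply Subtype.ext
    have ha : (a : P) = ((f a).1 : P) * h ^ ((f a).2 : ℕ) :=
      (D.exists_mul_pow a.2).choose_spec.2.choose_spec.2
    have hb : (b : P) = ((f b).1 : P) * h ^ ((f b).2 : ℕ) :=
      (D.exists_mul_pow b.2).choose_spec.2.choose_spec.2
    rw [ha, hb, hab]
  refine ⟨Finite.of_injective f hinj, (Nat.card_le_card_of_injective f hinj).trans ?_⟩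
  rw [Nat.card_prod, Nat.card_fin]
  exact Nat.mul_le_mul_right N hc

end BorelData

end CfsgLib.SUThreePres
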