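import Mathlib
import Cfsg.Agent.Classical.Unitary.Field
import Cfsg.Agent.SLTwoPres.Unipotent

/-!
The multipliers of the torus of `SU₃(q)` on the root group: spanning properties and an element of
norm one whose successor is again a multiplier.
-/

set_option autoImplicit false
set_option linter.style.haveILetI false
set_option linter.unusedSectionVars false

open Polynomial

namespace CfsgLib.SUThreePres

open CfsgLib.Unitary CfsgLib.SLTwoPres

section Span

variable {F : Type*} [Field F] [Fintype F] {p : ℕ} [hp : Fact p.Prime] [Algebra (ZMod p) F]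

/-- An element of the subfield generated by `x` is an additive combination of low powers of `x`. -/
theorem mem_of_powers (x : F) {y : F} (hy : y ∈ Algebra.adjoin (ZMod p) {x}) {n : ℕ}
    (hn : (minpoly (ZMod p) x).natDegree ≤ n) (A : AddSubgroup F) (hA : ∀ i < n, x ^ i ∈ A) :
    y ∈ A := by
  rw [Algebra.adjoin_singleton_eq_range_aeval] at hy
  obtain ⟨f, rfl⟩ := hy
  have hx : IsIntegral (ZMod p) x := Algebra.IsIntegral.isIntegral x
  have hm := minpoly.monic hx
  show aeval x f ∈ A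
  rw [← Polynomial.modByMonic_add_div f (minpoly (ZMod p) x), map_add, map_mul, minpoly.aeval,
    zero_mul, add_zero]
  have hdeg : (f %ₘ minpoly (ZMod p) x).natDegree < n :=
    lt_of_lt_of_le (Polynomial.natDegree_modByMonic_lt f hm
      (fun h => by
        have := minpoly.natDegree_pos hx
        rw [h, Polynomial.natDegree_one] at this
        exact lt_irrefl _ this)) hn
  rw [aeval_eq_sum_range' hdeg]
  refine sum_mem fun i hi => ?_
  rw [← ZMod.natCast_zmod_val ((f %ₘ minpoly (ZMod p) x).coeff i), Nat.cast_smul_eq_nsmul]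
  exact nsmul_mem (hA i (Finset.mem_range.mp hi)) _

theorem mem_of_powers_top (x : F) (hx : Algebra.adjoin (ZMod p) {x} = ⊤) (A : AddSubgroup F)
    (hA : ∀ i < Module.finrank (ZMod p) F, x ^ i ∈ A) (y : F) : y ∈ A :=
  mem_of_powers x (hx ▸ Algebra.mem_top) (minpoly.natDegree_le x) A hA

/-- A fixed point of `t ↦ t ^ q` generating no smaller field spans all fixed points. -/
theorem fixed_mem_of_powers {q e : ℕ} (hF : Fintype.card F = q ^ 2) (he : q = p ^ e) {x : F}
    (hx : x ^ q = x) (hne : ∀ d, 1 ≤ d → d < e → x ^ p ^ d ≠ x) (A : AddSubgroup F)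
    (hA : ∀ i < e, x ^ i ∈ A) {y : F} (hy : y ^ q = y) : y ∈ A := by
  classical
  set K := IntermediateField.adjoin (ZMod p) {x} with hK
  have hKA : ∀ z : F, z ∈ K ↔ z ∈ Algebra.adjoin (ZMod p) {x} := fun z => by
    rw [← IntermediateField.adjoin_simple_toSubalgebra_of_isAlgebraic
      (Algebra.IsAlgebraic.isAlgebraic x)]
    rfl
  have hd : Module.finrank (ZMod p) K = (minpoly (ZMod p) x).natDegree :=
    IntermediateField.adjoin.finrank (Algebra.IsIntegral.isIntegral x)
  set d := Module.finrank (ZMod p) K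
  haveI : Fintype K := Fintype.ofFinite K
  have hcK : Fintype.card K = p ^ d := card_field
  have hfix : ∀ z : F, z ∈ K → z ^ q = z := by
    intro z hz
    exact mem_of_powers x ((hKA z).mp hz) le_rfl
      { carrier := {z : F | z ^ q = z}
        zero_mem' := zero_pow_q hF
        add_mem' := fun {a b} (ha : a ^ q = a) (hb : b ^ q = b) =>
          show (a + b) ^ q = a + b by rw [add_pow_q hF, ha, hb]
        neg_mem' := fun {a} (ha : a ^ q = a) =>
          show (-a) ^ q = -a by rw [neg_pow_q hF, ha] }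
      (fun i _ => show (x ^ i) ^ q = x ^ i by rw [← pow_mul, mul_comm, pow_mul, hx])
  have hxd : x ^ p ^ d = x := by
    have h := FiniteField.pow_card (⟨x, IntermediateField.mem_adjoin_simple_self _ x⟩ : K)
    rw [hcK] at h
    exact congrArg Subtype.val h
  have hle : p ^ d ≤ q := by
    rw [← hcK, ← card_fixed hF, ← Nat.card_eq_fintype_card]
    exact Nat.card_le_card_of_injective (fun z => (⟨z.1, hfix z.1 z.2⟩ : {z : F // z ^ q = z}))
      (fun a b h => Subtype.ext (congrArg Subtype.val h :))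
  have hde : d = e := by
    have h1 : d ≤ e := (Nat.pow_le_pow_iff_right hp.out.one_lt).mp (he ▸ hle)
    by_contra h2
    exact hne d Module.finrank_pos (lt_of_le_of_ne h1 h2) hxd
  have hyK : y ∈ K := by
    have hbij : Function.Bijective
        (fun z : K => (⟨z.1, hfix z.1 z.2⟩ : {z : F // z ^ q = z})) := by
      haveI : Finite {z : F // z ^ q = z} := Subtype.finite
      refine (Nat.bijective_iff_injective_and_card _).mpr
        ⟨fun a b h => Subtype.ext (congrArg Subtype.val h :), ?_⟩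
      rw [Nat.card_eq_fintype_card, hcK, card_fixed hF, hde, he]
    obtain ⟨z, hz⟩ := hbij.2 ⟨y, hy⟩
    have h' : (z : F) = y := congrArg Subtype.val hz
    exact h' ▸ z.2
  exact mem_of_powers x ((hKA y).mp hyK) (by rw [← hd, hde]) A hA

end Span

variable {F : Type*} [Field F]

/-- The multiplier on `U / Z`. -/
def theta (q : ℕ) (ζ : Fˣ) : F := (ζ : F) ^ 2 / (ζ : F) ^ q

/-- The multiplier on `Z`. -/
def nu (q : ℕ) (ζ : Fˣ) : F := (ζ : F) ^ q * ζ

theorem theta_ne_zero (q : ℕ) (ζ : Fˣ) : theta q ζ ≠ 0 :=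
  div_ne_zero (pow_ne_zero _ ζ.ne_zero) (pow_ne_zero _ ζ.ne_zero)

theorem arith_sub_add {p e d : ℕ} (hp : p.Prime) (hd : 1 ≤ d) (hde : d < e)
    (h : p ^ e + 1 ∣ 3 * (p ^ d - 1) ∨ p ^ e + 1 ∣ 3 * (p ^ d + 1)) : p ^ e = 8 := by
  have hp2 := hp.two_le
  have hpd : p ≤ p ^ d := Nat.le_self_pow (by omega) p
  obtain ⟨k, hk⟩ : ∃ k, e = d + 1 + k := ⟨e - d - 1, by omega⟩
  obtain ⟨X, hX⟩ : ∃ X, p ^ d = X := ⟨_, rfl⟩
  have he : p ^ e = X * p * p ^ k := by rw [hk, pow_add, pow_succ, hX]
  rw [hX] at h hpd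
  rcases (show p = 2 ∨ 3 ≤ p by omega) with rfl | h3
  · rcases Nat.eq_zero_or_pos k with rfl | hk0
    · simp only [he, pow_zero, mul_one] at h ⊢
      have hd2 : d = 1 ∨ d = 2 ∨ 3 ≤ d := by omega
      rcases hd2 with rfl | rfl | hd3
      · norm_num at hX; subst hX; norm_num at h
      · norm_num at hX; subst hX; rfl
      · have h8 : 8 ≤ X := hX ▸ Nat.pow_le_pow_right (by norm_num : 0 < 2) hd3
        rcases h with ⟨c, hc⟩ | ⟨c, hc⟩
        · have h1 : c < 2 := by
            by_contra hcon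
            have := Nat.mul_le_mul_left (X * 2 + 1) (Nat.le_of_not_lt hcon)
            omega
          interval_cases c <;> omega
        · have h1 : c < 2 := by
            by_contra hcon
            have := Nat.mul_le_mul_left (X * 2 + 1) (Nat.le_of_not_lt hcon)
            omega
          interval_cases c <;> omega
    · obtain ⟨j, rfl⟩ : ∃ j, k = j + 1 := ⟨k - 1, by omega⟩
      have hj : 1 ≤ 2 ^ j := Nat.one_le_two_pow
      have h4 : X * 4 ≤ 2 ^ e := by
        rw [he, pow_succ]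
        calc X * 4 = X * 2 * (1 * 2) := by ring
          _ ≤ _ := Nat.mul_le_mul_left _ (Nat.mul_le_mul_right _ hj)
      rcases h with h | h
      · have := Nat.le_of_dvd (by omega) h
        omega
      · have h' := Nat.le_of_dvd (by omega) h
        have hX2 : X = 2 := by omega
        subst hX2
        omega
  · have hk1 : 1 ≤ p ^ k := Nat.one_le_pow _ _ (by omega)
    have hX3 : X * 3 ≤ p ^ e := by
      rw [he]
      calc X * 3 = X * 3 * 1 := (mul_one _).symm
        _ ≤ _ := Nat.mul_le_mul (Nat.mul_le_mul_left _ h3) hk1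
    rcases h with h | h
    · have := Nat.le_of_dvd (by omega) h
      omega
    · exfalso
      have h' := Nat.le_of_dvd (by omega) h
      rcases eq_or_ne (p ^ e) (X * 3) with heq | hne
      · rw [heq] at h
        obtain ⟨c, hc⟩ := h
        have h1 : c < 2 := by
          by_contra hcon
          have := Nat.mul_le_mul_left (X * 3 + 1) (Nat.le_of_not_lt hcon)
          omega
        interval_cases c <;> omega
      · have hlt : X * 4 ≤ p ^ e := by
          rcases (show p = 3 ∨ 4 ≤ p by omega) with rfl | h4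
          · rcases Nat.eq_zero_or_pos k with rfl | hk0
            · exact absurd (by rw [he]; simp) hne
            · rw [he]
              have : 3 ≤ 3 ^ k := Nat.le_self_pow (by omega) 3
              calc X * 4 ≤ X * 3 * 3 := by omega
                _ ≤ _ := Nat.mul_le_mul_left _ this
          · rw [he]
            calc X * 4 = X * 4 * 1 := (mul_one _).symm
              _ ≤ _ := Nat.mul_le_mul (Nat.mul_le_mul_left _ h4) hk1
        omega

variable [Fintype F] {q : ℕ} (hF : Fintype.card F = q ^ 2) (ζ : Fˣ)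
  (hζ : ∀ u : Fˣ, u ∈ Subgroup.zpowers ζ)
include hF

theorem theta_pow_q : theta q ζ ^ q = ((ζ : F) ^ 2) ^ q / ζ := by
  rw [theta, div_pow, pow_q_q hF]

theorem theta_pow_succ : theta q ζ ^ (q + 1) = nu q ζ := by
  have h := pow_ne_zero q ζ.ne_zero
  have h0 : (ζ : F) ≠ 0 := ζ.ne_zero
  rw [pow_succ, theta_pow_q hF, theta, nu, ← pow_mul, mul_comm 2 q, pow_mul]
  field_simp

theorem theta_pow_succ_succ : theta q ζ ^ (q + 2) = (ζ : F) ^ 3 := by
  have h := pow_ne_zero q ζ.ne_zero
  have h0 : (ζ : F) ≠ 0 := ζ.ne_zero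
  rw [pow_succ, theta_pow_succ hF, theta, nu]
  field_simp

theorem nu_pow_q : nu q ζ ^ q = nu q ζ := by
  rw [nu, mul_pow, pow_q_q hF, mul_comm]

include hζ

theorem orderOf_gen : orderOf (ζ : F) = (q - 1) * (q + 1) := by
  rw [orderOf_units, orderOf_eq_card_of_forall_mem_zpowers hζ, card_units_eq hF]

theorem exists_nu_pow {r : F} (hr : r ^ q = r) (h0 : r ≠ 0) : ∃ k : ℕ, r = nu q ζ ^ k := by
  obtain ⟨x, hx⟩ := exists_norm_eq hF hr
  have hx0 : x ≠ 0 := fun h => h0 (by rw [← hx, h, zero_pow (by omega)])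
  obtain ⟨k, hk⟩ := (mem_powers_iff_mem_zpowers).2 (hζ (Units.mk0 x hx0))
  refine ⟨k, ?_⟩
  have hk' : x = (ζ : F) ^ k := by
    rw [← Units.val_pow_eq_pow_val, show ζ ^ k = _ from hk, Units.val_mk0]
  rw [← hx, hk', nu, ← pow_succ, ← pow_mul, ← pow_mul, mul_comm]

theorem nu_spans {p e : ℕ} [hp : Fact p.Prime] [Algebra (ZMod p) F] (he : q = p ^ e)
    (A : AddSubgroup F) (hA : ∀ i < e, nu q ζ ^ i ∈ A) {y : F} (hy : y ^ q = y) : y ∈ A := by
  refine fixed_mem_of_powers hF he (nu_pow_q hF ζ) (fun d hd hde hfix => ?_) A hA hy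
  have hlt : p ^ d < q := he ▸ Nat.pow_lt_pow_right hp.out.one_lt hde
  have h1 : p ≤ p ^ d := Nat.le_self_pow (by omega) p
  have hp2 := hp.out.two_le
  have h2 : (ζ : F) ^ ((q + 1) * (p ^ d - 1)) = 1 := by
    have hn : nu q ζ ≠ 0 := mul_ne_zero (pow_ne_zero _ ζ.ne_zero) ζ.ne_zero
    rw [pow_mul, show (ζ : F) ^ (q + 1) = nu q ζ from pow_succ _ _]
    exact mul_right_cancel₀ hn (by
      rw [← pow_succ, Nat.sub_add_cancel (by omega), one_mul]; exact hfix)
  have h3 := orderOf_dvd_of_pow_eq_one h2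
  rw [orderOf_gen hF ζ hζ, mul_comm (q + 1)] at h3
  have := Nat.le_of_dvd (by omega) (Nat.dvd_of_mul_dvd_mul_right (Nat.succ_pos q) h3)
  omega

theorem theta_spans (h2 : q ≠ 2) {p : ℕ} [hp : Fact p.Prime] [Algebra (ZMod p) F] :
    Algebra.adjoin (ZMod p) {theta q ζ} = ⊤ := by
  by_contra h
  obtain ⟨d, hd1, hd2, hd⟩ := pow_eq_self_of_adjoin_ne_top (p := p) _ h
  have hp2 := hp.out.two_le
  have hq2 := two_le_q hF
  have hc := card_field (p := p) (F := F)
  rw [hF] at hc
  have hle : p ^ d ≤ q := by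
    refine (Nat.pow_le_pow_iff_left two_ne_zero).mp ?_
    rw [hc, ← pow_mul]
    exact Nat.pow_le_pow_right (by omega) (by omega)
  have h1 : p ≤ p ^ d := Nat.le_self_pow (by omega) p
  have h3 : (ζ : F) ^ (3 * (p ^ d - 1)) = 1 := by
    rw [pow_mul, ← theta_pow_succ_succ hF ζ, ← pow_mul, mul_comm, pow_mul]
    have : theta q ζ ^ (p ^ d - 1) = 1 := mul_right_cancel₀ (theta_ne_zero q ζ) (by
      rw [← pow_succ, Nat.sub_add_cancel (by omega), one_mul]; exact hd)
    rw [this, one_pow]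
  have h4 := orderOf_dvd_of_pow_eq_one h3
  rw [orderOf_gen hF ζ hζ] at h4
  have h5 := Nat.le_of_dvd (by omega) h4
  have h6 : (q - 1) * (q + 1) ≤ 3 * (q - 1) := h5.trans (Nat.mul_le_mul_left 3 (by omega))
  have h7 : (q - 1) * (q + 1) ≤ (q - 1) * 3 := by rwa [mul_comm 3] at h6
  have := Nat.le_of_mul_le_mul_left h7 (by omega)
  omega

/-- An element `θ ^ β` of norm one with `1 + θ ^ β = θ ^ α` generating the field. -/
theorem exists_pair {p e : ℕ} [hp : Fact p.Prime] [Algebra (ZMod p) F] (he : q = p ^ e)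
    (h2 : q ≠ 2) (h5 : q ≠ 5) (h8 : q ≠ 8) :
    ∃ α β : ℕ, theta q ζ ^ α = 1 + theta q ζ ^ β ∧ nu q ζ ^ β = 1 ∧
      Algebra.adjoin (ZMod p) {theta q ζ ^ α} = ⊤ ∧
      ∀ A : AddSubgroup F, (∀ i < e, (nu q ζ ^ α) ^ i ∈ A) → ∀ y : F, y ^ q = y → y ∈ A := by
  haveI : CharP F p := (Algebra.charP_iff (ZMod p) F p).1 inferInstance
  have hq2 := two_le_q hF
  have hp2 := hp.out.two_le
  have hord := orderOf_gen hF ζ hζ
  set θ := theta q ζ with hθ
  have hθ0 : θ ≠ 0 := theta_ne_zero q ζ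
  have hθq0 : θ ^ q ≠ 0 := pow_ne_zero _ hθ0
  have hz0 : (ζ : F) ≠ 0 := ζ.ne_zero
  have hzq0 : (ζ : F) ^ q ≠ 0 := pow_ne_zero _ hz0
  have hzc : θ / θ ^ q = ((ζ : F) / (ζ : F) ^ q) ^ 3 := by
    rw [hθ, theta_pow_q hF, theta, ← pow_mul, mul_comm 2 q, pow_mul]
    field_simp
  have hdvd : ∀ m : ℕ, (θ / θ ^ q) ^ m = 1 → q + 1 ∣ 3 * m := by
    intro m hm
    rw [hzc, ← pow_mul, div_pow, div_eq_one_iff_eq (pow_ne_zero _ hzq0), ← pow_mul] at hm
    have hmm : q * (3 * m) = 3 * m + (q - 1) * (3 * m) := by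
      nth_rewrite 1 [show q = 1 + (q - 1) by omega]
      ring
    rw [hmm, pow_add] at hm
    have h1 := orderOf_dvd_of_pow_eq_one (mul_left_cancel₀ (pow_ne_zero _ hz0) (by
      rw [← hm, mul_one]) : (ζ : F) ^ ((q - 1) * (3 * m)) = 1)
    rw [hord] at h1
    exact Nat.dvd_of_mul_dvd_mul_left (by omega) h1
  have ht0 : θ + θ ^ q ≠ 0 := by
    intro h
    have h6 := hdvd 2 (by
      rw [(div_eq_iff hθq0).mpr ((eq_neg_of_add_eq_zero_left h).trans (neg_one_mul _).symm),
        neg_one_sq])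
    have h6' := Nat.le_of_dvd (by norm_num) h6
    have h6'' : q ≤ 5 := by omega
    rcases (show q = 3 ∨ q = 4 by omega) with hq | hq <;> rw [hq] at h6 <;> norm_num at h6
  have htq : (θ + θ ^ q) ^ q = θ + θ ^ q := trace_pow_q hF θ
  obtain ⟨k, hk⟩ := exists_nu_pow hF ζ hζ htq ht0
  set N := (q - 1) * (q + 1) with hN
  have hN1 : 1 ≤ N := Nat.one_le_iff_ne_zero.mpr (Nat.mul_ne_zero (by omega) (by omega))
  have hinv : θ ^ ((N - 1) * q) = (θ ^ q)⁻¹ := by
    rw [mul_comm, pow_mul]
    refine eq_inv_of_mul_eq_one_left ?_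
    rw [← pow_succ, Nat.sub_add_cancel hN1, hN, ← card_units_eq hF,
      show θ ^ q = ((Units.mk0 _ hθq0 : Fˣ) : F) from rfl, ← Units.val_pow_eq_pow_val,
      pow_card_eq_one', Units.val_one]
  refine ⟨(q + 1) * k + (N - 1) * q, 1 + (N - 1) * q, ?_⟩
  have hc : θ ^ (1 + (N - 1) * q) = θ / θ ^ q := by
    rw [pow_add, pow_one, hinv, div_eq_mul_inv]
  have hc1 : θ ^ ((q + 1) * k + (N - 1) * q) = (θ + θ ^ q) / θ ^ q := by
    rw [pow_add, pow_mul, hθ, theta_pow_succ hF, ← hθ, ← hk, hinv, div_eq_mul_inv]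
  set c := θ / θ ^ q with hcdef
  have hcc : c * c ^ q = 1 := by
    rw [hcdef, div_pow, pow_q_q hF]
    field_simp
  have hsum : (θ + θ ^ q) / θ ^ q = 1 + c := by
    rw [hcdef]; field_simp; ring
  rw [hsum] at hc1
  have hνβ : nu q ζ ^ (1 + (N - 1) * q) = 1 := by
    rw [← theta_pow_succ hF, ← hθ, ← pow_mul, mul_comm, pow_mul, hc, pow_succ', hcc]
  refine ⟨by rw [hc1, hc], hνβ, ?_, ?_⟩
  · rw [hc1]
    by_contra h
    obtain ⟨d, hd1, hd2, hd⟩ := pow_eq_self_of_adjoin_ne_top (p := p) _ h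
    have hcard := card_field (p := p) (F := F)
    rw [hF, he, ← pow_mul] at hcard
    have hfr : e * 2 = Module.finrank (ZMod p) F := Nat.pow_right_injective hp2 hcard
    rw [add_pow_char_pow, one_pow, add_right_inj] at hd
    have hpd : p ≤ p ^ d := Nat.le_self_pow (by omega) p
    have hc0 : c ≠ 0 := fun h => by simp [h] at hcc
    have h3 := hdvd (p ^ d - 1) (mul_right_cancel₀ hc0 (by
      rw [← pow_succ, Nat.sub_add_cancel (by omega), one_mul]; exact hd))
    rcases lt_or_eq_of_le (show d ≤ e by omega) with hlt | heq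
    · exact h8 (he.trans (arith_sub_add hp.out hd1 hlt (Or.inl (he ▸ h3))))
    · rw [heq, ← he] at h3
      have h3' : q + 1 ∣ 6 := by
        have := Nat.dvd_sub (dvd_mul_left (q + 1) 3) h3
        rwa [show 3 * (q + 1) - 3 * (q - 1) = 6 by omega] at this
      have h6' := Nat.le_of_dvd (by norm_num) h3'
      have h6'' : q ≤ 5 := by omega
      rcases (show q = 3 ∨ q = 4 by omega) with hq | hq <;> rw [hq] at h3' <;> norm_num at h3'
  · have hx : nu q ζ ^ ((q + 1) * k + (N - 1) * q) = c + c ^ q + 2 := by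
      rw [← theta_pow_succ hF, ← hθ, ← pow_mul, mul_comm, pow_mul, hc1, pow_succ', add_pow_q hF,
        one_pow]
      linear_combination hcc
    intro A hA y hy
    refine fixed_mem_of_powers hF he
      (by rw [← pow_mul, mul_comm, pow_mul, nu_pow_q hF]) (fun d hd hde hfix => ?_) A hA hy
    rw [hx, show c + c ^ q + 2 = 1 + (c + c ^ q + 1) by ring, add_pow_char_pow, one_pow,
      add_right_inj, add_pow_char_pow, one_pow, add_left_inj, add_pow_char_pow,
      ← pow_mul c q, mul_comm q, pow_mul] at hfix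
    set Y := c ^ p ^ d with hY
    have hYY : Y * Y ^ q = 1 := by
      rw [hY, pow_right_comm, ← mul_pow, hcc, one_pow]
    have hpd : p ≤ p ^ d := Nat.le_self_pow (by omega) p
    have hprod : (Y - c) * (Y * c - 1) = 0 := by
      linear_combination (Y * c) * hfix - c * hYY + Y * hcc
    have hc0 : c ≠ 0 := fun h => by simp [h] at hcc
    refine h8 (he.trans (arith_sub_add hp.out hd hde ?_))
    rcases mul_eq_zero.mp hprod with h | h <;> rw [sub_eq_zero] at h
    · exact Or.inl (he ▸ hdvd (p ^ d - 1) (mul_right_cancel₀ hc0 (by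
        rw [← pow_succ, Nat.sub_add_cancel (by omega), one_mul]; exact h)))
    · exact Or.inr (he ▸ hdvd (p ^ d + 1) (by rw [pow_succ]; exact h))

end CfsgLib.SUThreePres
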