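import Mathlib
import Cfsg.Agent.Classical.Unitary.Order

/-!
`SU₃(q)` for the form `u₀ v̄₂ + u₁ v̄₁ + u₂ v̄₀`: the root group, the torus, the Weyl element and
the rank-one Bruhat identities.
-/

set_option autoImplicit false

open Matrix

namespace CfsgLib.SUThreePres

open CfsgLib.Unitary

variable {F : Type*} [Field F] [Fintype F] {q : ℕ}

/-- The antidiagonal Hermitian form. -/
def formJ (q : ℕ) (u v : Fin 3 → F) : F := u 0 * (v 2) ^ q + u 1 * (v 1) ^ q + u 2 * (v 0) ^ q

/-- The unitary group of `formJ`. -/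
def GJ (F : Type*) [Field F] (q : ℕ) : Subgroup (Matrix.SpecialLinearGroup (Fin 3) F) :=
  Cfsg.preserving (Cfsg.slToMat 3 F) (formJ q)

/-- The underlying matrix. -/
def mat (g : GJ F q) : Matrix (Fin 3) (Fin 3) F := (g : Matrix.SpecialLinearGroup (Fin 3) F).1

omit [Fintype F] in
theorem mat_ext {g h : GJ F q} (e : mat g = mat h) : g = h := Subtype.ext (Subtype.ext e)

omit [Fintype F] in
theorem mat_mul (g h : GJ F q) : mat (g * h) = mat g * mat h := rfl

omit [Fintype F] in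
theorem mat_one : mat (1 : GJ F q) = 1 := rfl

/-- An element of `GJ` from a matrix. -/
def mkJ (M : Matrix (Fin 3) (Fin 3) F) (hd : M.det = 1)
    (hp : ∀ u v, formJ q (M *ᵥ u) (M *ᵥ v) = formJ q u v) : GJ F q :=
  ⟨⟨M, hd⟩, fun u v => hp u v⟩

/-- `(a, b)` lies on the root group. -/
def Cond (q : ℕ) (a b : F) : Prop := b + b ^ q + a * a ^ q = 0

/-- The unipotent matrix. -/
def uMat (q : ℕ) (a b : F) : Matrix (Fin 3) (Fin 3) F := !![1, a, b; 0, 1, -(a ^ q); 0, 0, 1]

theorem uMat_preserves (hF : Fintype.card F = q ^ 2) {a b : F} (h : Cond q a b) (u v : Fin 3 → F) :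
    formJ q (uMat q a b *ᵥ u) (uMat q a b *ᵥ v) = formJ q u v := by
  simp only [formJ, uMat, Matrix.mulVec, dotProduct, Fin.sum_univ_three, Matrix.of_apply,
    Matrix.cons_val', Matrix.cons_val_zero, Matrix.cons_val_one, Matrix.cons_val, Fin.isValue,
    zero_mul, one_mul, zero_add, add_zero, add_pow_q hF, mul_pow, neg_pow_q hF, pow_q_q hF]
  have h' : b + b ^ q + a * a ^ q = 0 := h
  linear_combination (u 2 * (v 2) ^ q) * h'

omit [Fintype F] in
theorem det_uMat (a b : F) : (uMat q a b).det = 1 := by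
  simp [uMat, Matrix.det_fin_three]

open Classical in
/-- The root group element. -/
noncomputable def uEl (hF : Fintype.card F = q ^ 2) (a b : F) : GJ F q :=
  if h : Cond q a b then mkJ (uMat q a b) (det_uMat a b) (uMat_preserves hF h) else 1

variable (hF : Fintype.card F = q ^ 2)

theorem mat_uEl {a b : F} (h : Cond q a b) : mat (uEl hF a b) = uMat q a b := by
  rw [uEl, dif_pos h]; rfl

/-- The torus matrix. -/
def hMat (q : ℕ) (μ : Fˣ) : Matrix (Fin 3) (Fin 3) F :=
  !![(μ : F), 0, 0; 0, (μ : F) ^ q / μ, 0; 0, 0, ((μ : F) ^ q)⁻¹]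

omit [Fintype F] in
theorem det_hMat (μ : Fˣ) : (hMat q μ).det = 1 := by
  have h1 : (μ : F) ≠ 0 := μ.ne_zero
  have h2 : (μ : F) ^ q ≠ 0 := pow_ne_zero _ h1
  simp [hMat, Matrix.det_fin_three]
  field_simp

include hF in
theorem hMat_preserves (μ : Fˣ) (u v : Fin 3 → F) :
    formJ q (hMat q μ *ᵥ u) (hMat q μ *ᵥ v) = formJ q u v := by
  have h1 : (μ : F) ≠ 0 := μ.ne_zero
  have h2 : (μ : F) ^ q ≠ 0 := pow_ne_zero _ h1
  simp only [formJ, hMat, Matrix.mulVec, dotProduct, Fin.sum_univ_three, Matrix.of_apply,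
    Matrix.cons_val', Matrix.cons_val_zero, Matrix.cons_val_one, Matrix.cons_val, Fin.isValue,
    zero_mul, one_mul, zero_add, add_zero, mul_pow, div_pow, inv_pow, pow_q_q hF]
  field_simp

/-- The torus. -/
noncomputable def hEl : Fˣ →* GJ F q where
  toFun μ := mkJ (hMat q μ) (det_hMat μ) (hMat_preserves hF μ)
  map_one' := mat_ext (by
    show hMat q 1 = (1 : Matrix (Fin 3) (Fin 3) F)
    ext i j; fin_cases i <;> fin_cases j <;> simp [hMat])
  map_mul' μ ν := mat_ext (by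
    show hMat q (μ * ν) = hMat q μ * hMat q ν
    ext i j; fin_cases i <;> fin_cases j <;>
      simp [hMat, Matrix.mul_apply, Fin.sum_univ_three, mul_pow] <;> ring)

theorem mat_hEl (μ : Fˣ) : mat (hEl hF μ) = hMat q μ := rfl

/-- The Weyl matrix. -/
def wMat (F : Type*) [Field F] : Matrix (Fin 3) (Fin 3) F := !![0, 0, 1; 0, -1, 0; 1, 0, 0]

include hF in
theorem wMat_preserves (u v : Fin 3 → F) :
    formJ q (wMat F *ᵥ u) (wMat F *ᵥ v) = formJ q u v := by
  simp only [formJ, wMat, Matrix.mulVec, dotProduct, Fin.sum_univ_three, Matrix.of_apply,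
    Matrix.cons_val', Matrix.cons_val_zero, Matrix.cons_val_one, Matrix.cons_val, Fin.isValue,
    zero_mul, one_mul, neg_mul, zero_add, add_zero, neg_pow_q hF]
  ring

omit [Fintype F] in
theorem det_wMat : (wMat F).det = 1 := by simp [wMat, Matrix.det_fin_three]

/-- The Weyl element. -/
noncomputable def wEl : GJ F q := mkJ (wMat F) det_wMat (wMat_preserves hF)

theorem mat_wEl : mat (wEl hF) = wMat F := rfl

theorem wEl_sq : wEl hF * wEl hF = 1 := mat_ext (by
  rw [mat_mul, mat_wEl, mat_one]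
  ext i j; fin_cases i <;> fin_cases j <;> simp [wMat, Matrix.mul_apply, Fin.sum_univ_three])

include hF in
theorem cond_add {a b c d : F} (h : Cond q a b) (h' : Cond q c d) :
    Cond q (a + c) (b + d - a * c ^ q) := by
  unfold Cond at *
  rw [add_pow_q hF, sub_pow_q hF, add_pow_q hF, mul_pow, pow_q_q hF]
  linear_combination h + h'

theorem uEl_mul {a b c d : F} (h : Cond q a b) (h' : Cond q c d) :
    uEl hF a b * uEl hF c d = uEl hF (a + c) (b + d - a * c ^ q) := mat_ext (by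
  rw [mat_mul, mat_uEl hF h, mat_uEl hF h', mat_uEl hF (cond_add hF h h')]
  ext i j; fin_cases i <;> fin_cases j <;>
    simp [uMat, Matrix.mul_apply, Fin.sum_univ_three, add_pow_q hF] <;> ring)

include hF in
theorem cond_zero : Cond q (0 : F) 0 := by simp [Cond, zero_pow_q hF]

theorem cond_central {s : F} : Cond q (0 : F) s ↔ s + s ^ q = 0 := by simp [Cond]

theorem uEl_zero : uEl hF 0 0 = 1 := mat_ext (by
  rw [mat_uEl hF (cond_zero hF), mat_one]
  ext i j; fin_cases i <;> fin_cases j <;> simp [uMat, zero_pow_q hF])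

include hF in
theorem cond_inv {a b : F} (h : Cond q a b) : Cond q (-a) (b ^ q) := by
  unfold Cond at *
  rw [neg_pow_q hF, pow_q_q hF]
  linear_combination h

theorem uEl_inv {a b : F} (h : Cond q a b) : (uEl hF a b)⁻¹ = uEl hF (-a) (b ^ q) := by
  refine inv_eq_of_mul_eq_one_right ?_
  rw [uEl_mul hF h (cond_inv hF h), add_neg_cancel, ← uEl_zero hF]
  congr 1
  have h' : b + b ^ q + a * a ^ q = 0 := h
  rw [neg_pow_q hF]
  linear_combination h'

theorem uEl_inj {a b c d : F} (h : Cond q a b) (h' : Cond q c d)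
    (e : uEl hF a b = uEl hF c d) : a = c ∧ b = d := by
  have e' := congrArg mat e
  rw [mat_uEl hF h, mat_uEl hF h'] at e'
  exact ⟨by simpa [uMat] using congrFun (congrFun e' 0) 1,
    by simpa [uMat] using congrFun (congrFun e' 0) 2⟩

theorem commutator_uEl {a b c d : F} (h : Cond q a b) (h' : Cond q c d) :
    uEl hF a b * uEl hF c d * (uEl hF a b)⁻¹ * (uEl hF c d)⁻¹ =
      uEl hF 0 (c * a ^ q - a * c ^ q) := by
  have hc : Cond q (0 : F) (c * a ^ q - a * c ^ q) := by
    rw [cond_central, sub_pow_q hF, mul_pow, mul_pow, pow_q_q hF, pow_q_q hF]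
    ring
  rw [mul_inv_eq_iff_eq_mul, mul_inv_eq_iff_eq_mul, mul_assoc,
    uEl_mul hF h h', uEl_mul hF h' h, uEl_mul hF hc (cond_add hF h' h)]
  congr 1 <;> ring_nf

include hF in
theorem cond_smul (μ : Fˣ) {a b : F} (h : Cond q a b) :
    Cond q ((μ : F) ^ 2 / (μ : F) ^ q * a) ((μ : F) ^ q * μ * b) := by
  have h2 : (μ : F) ^ q ≠ 0 := pow_ne_zero _ μ.ne_zero
  unfold Cond at *
  simp only [mul_pow, div_pow, ← pow_mul, mul_comm 2 q]
  rw [pow_mul, pow_mul, pow_q_q hF]
  field_simp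
  linear_combination (norm := ring_nf) (μ : F) ^ q * (μ : F) * h

theorem hEl_conj (μ : Fˣ) {a b : F} (h : Cond q a b) :
    hEl hF μ * uEl hF a b * (hEl hF μ)⁻¹ =
      uEl hF ((μ : F) ^ 2 / (μ : F) ^ q * a) ((μ : F) ^ q * μ * b) := by
  rw [mul_inv_eq_iff_eq_mul]
  refine mat_ext ?_
  rw [mat_mul, mat_mul, mat_uEl hF h, mat_uEl hF (cond_smul hF μ h), mat_hEl]
  have h1 : (μ : F) ≠ 0 := μ.ne_zero
  have h2 : (μ : F) ^ q ≠ 0 := pow_ne_zero _ h1
  ext i j; fin_cases i <;> fin_cases j <;>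
    simp [uMat, hMat, Matrix.mul_apply, Fin.sum_univ_three, mul_pow, div_pow, ← pow_mul,
      mul_comm 2 q] <;> (try simp only [pow_mul, pow_q_q hF]) <;> field_simp <;> (try ring_nf)

theorem wEl_conj (μ : Fˣ) : wEl hF * hEl hF μ * wEl hF = hEl hF (μ ^ q)⁻¹ := by
  refine mat_ext ?_
  rw [mat_mul, mat_mul, mat_hEl, mat_hEl, mat_wEl]
  have h1 : (μ : F) ≠ 0 := μ.ne_zero
  ext i j; fin_cases i <;> fin_cases j <;>
    simp [wMat, hMat, Matrix.mul_apply, Fin.sum_univ_three, inv_pow, pow_q_q hF] <;> field_simp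

include hF in
theorem cond_bruhat {a b : F} (h : Cond q a b) (hb : b ≠ 0) :
    Cond q (-a / b ^ q) b⁻¹ ∧ Cond q (-a / b) b⁻¹ := by
  have hbq : b ^ q ≠ 0 := pow_ne_zero _ hb
  unfold Cond at *
  simp only [div_pow, neg_pow_q hF, pow_q_q hF, inv_pow]
  constructor <;> field_simp <;> linear_combination h

/-- The rank-one Bruhat identity. -/
theorem bruhat {a b : F} (h : Cond q a b) (hb : b ≠ 0) :
    wEl hF * uEl hF a b * wEl hF =
      uEl hF (-a / b ^ q) b⁻¹ * hEl hF ((Units.mk0 b hb) ^ q)⁻¹ * wEl hF *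
        uEl hF (-a / b) b⁻¹ := by
  obtain ⟨hl, hr⟩ := cond_bruhat hF h hb
  refine mat_ext ?_
  rw [mat_mul, mat_mul, mat_mul, mat_mul, mat_mul, mat_uEl hF h, mat_uEl hF hl, mat_uEl hF hr,
    mat_hEl, mat_wEl]
  have hbq : b ^ q ≠ 0 := pow_ne_zero _ hb
  have h' : b + b ^ q + a * a ^ q = 0 := h
  ext i j; fin_cases i <;> fin_cases j <;>
    simp [uMat, wMat, hMat, Matrix.mul_apply, Fin.sum_univ_three, div_pow, neg_pow_q hF,
      pow_q_q hF, inv_pow] <;> field_simp <;>
    first | ring1 | linear_combination h' | linear_combination -h'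

/-! ### The change of basis to the standard form -/

include hF in
theorem exists_basis : ∃ g : GL (Fin 3) F, ∀ u v : Fin 3 → F,
    Cfsg.hermForm 3 F q ((g : Matrix (Fin 3) (Fin 3) F) *ᵥ u) ((g : Matrix (Fin 3) (Fin 3) F) *ᵥ v) =
      formJ q u v := by
  obtain ⟨l, hl⟩ := exists_norm_eq hF (a := (-1 : F)) (by rw [neg_pow_q hF, one_pow])
  obtain ⟨t, ht, ht2⟩ := exists_norm_one_ne_inv hF
  have hl0 : l ≠ 0 := fun h => by simp [h] at hl
  have ht1 : 1 - t ≠ 0 := fun h => ht2 (by rw [← sub_eq_zero.mp h]; ring)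
  set s : F := (1 - t)⁻¹ with hs
  have hs1 : s * (1 - t) = 1 := inv_mul_cancel₀ ht1
  have hl' : l * l ^ q = -1 := by rw [← pow_succ']; exact hl
  have ht' : t * t ^ q = 1 := by rw [← pow_succ']; exact ht
  let M : Matrix (Fin 3) (Fin 3) F := !![1, 0, s; l, 0, s * (l * t); 0, 1, 0]
  have hdet : M.det ≠ 0 := by
    have : M.det = s * l * (1 - t) := by simp [M, Matrix.det_fin_three]; ring
    rw [this, mul_right_comm, hs1, one_mul]
    exact hl0
  refine ⟨Matrix.GeneralLinearGroup.mkOfDetNeZero M hdet, fun u v => ?_⟩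
  show Cfsg.hermForm 3 F q (M *ᵥ u) (M *ᵥ v) = formJ q u v
  simp only [Cfsg.hermForm, formJ, M, Matrix.mulVec, dotProduct, Fin.sum_univ_three,
    Matrix.of_apply, Matrix.cons_val', Matrix.cons_val_zero, Matrix.cons_val_one, Matrix.cons_val,
    Fin.isValue, zero_mul, mul_zero, one_mul, zero_add, add_zero, mul_pow, add_pow_q hF, zero_pow_q hF]
  have hs2 : s ^ q * (1 - t ^ q) = 1 := by
    have := congrArg (· ^ q) hs1
    simpa [mul_pow, sub_pow_q hF] using this
  linear_combination (u 0 * v 0 ^ q + u 0 * v 2 ^ q * s ^ q * t ^ q + u 2 * v 0 ^ q * s * t +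
    u 2 * v 2 ^ q * s * s ^ q * t * t ^ q) * hl' + u 0 * v 2 ^ q * hs2 + u 2 * v 0 ^ q * hs1 -
    u 2 * v 2 ^ q * s * s ^ q * ht'

include hF in
/-- `SU₃(q)` in the two coordinate systems. -/
theorem exists_iso : Nonempty (GJ F q ≃* ↥(Cfsg.SU 3 F q)) := by
  obtain ⟨g, hg⟩ := exists_basis hF
  set G : Matrix (Fin 3) (Fin 3) F := (g : Matrix (Fin 3) (Fin 3) F) with hG
  set G' : Matrix (Fin 3) (Fin 3) F := ((g⁻¹ : GL (Fin 3) F) : Matrix (Fin 3) (Fin 3) F) with hG'
  have h1 : G * G' = 1 := by rw [hG, hG', ← Units.val_mul, mul_inv_cancel, Units.val_one]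
  have h2 : G' * G = 1 := by rw [hG, hG', ← Units.val_mul, inv_mul_cancel, Units.val_one]
  have hinv : ∀ u v, formJ q (G' *ᵥ u) (G' *ᵥ v) = Cfsg.hermForm 3 F q u v := fun u v => by
    rw [← hg, Matrix.mulVec_mulVec, Matrix.mulVec_mulVec, h1, Matrix.one_mulVec, Matrix.one_mulVec]
  have hd : ∀ A : Matrix (Fin 3) (Fin 3) F, (G * A * G').det = A.det := fun A => by
    rw [Matrix.det_mul_right_comm, h1, one_mul]
  have hd' : ∀ A : Matrix (Fin 3) (Fin 3) F, (G' * A * G).det = A.det := fun A => by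
    rw [Matrix.det_mul_right_comm, h2, one_mul]
  let f : GJ F q → ↥(Cfsg.SU 3 F q) := fun A =>
    ⟨⟨G * mat A * G', (hd _).trans A.1.2⟩, fun u v => by
      show Cfsg.hermForm 3 F q ((G * mat A * G') *ᵥ u) ((G * mat A * G') *ᵥ v) = _
      rw [← Matrix.mulVec_mulVec, ← Matrix.mulVec_mulVec, ← Matrix.mulVec_mulVec,
        ← Matrix.mulVec_mulVec, hg, ← hinv]
      exact A.2 _ _⟩
  let f' : ↥(Cfsg.SU 3 F q) → GJ F q := fun A =>
    ⟨⟨G' * A.1.1 * G, (hd' _).trans A.1.2⟩, fun u v => by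
      show formJ q ((G' * A.1.1 * G) *ᵥ u) ((G' * A.1.1 * G) *ᵥ v) = _
      rw [← Matrix.mulVec_mulVec, ← Matrix.mulVec_mulVec, ← Matrix.mulVec_mulVec,
        ← Matrix.mulVec_mulVec, hinv, ← hg]
      exact A.2 _ _⟩
  refine ⟨{ toFun := f, invFun := f', left_inv := fun A => ?_, right_inv := fun A => ?_,
            map_mul' := fun A B => ?_ }⟩
  · refine mat_ext ?_
    show G' * (G * mat A * G') * G = mat A
    rw [show G' * (G * mat A * G') * G = (G' * G) * mat A * (G' * G) by simp only [Matrix.mul_assoc],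
      h2, Matrix.one_mul, Matrix.mul_one]
  · refine Subtype.ext (Subtype.ext ?_)
    show G * (G' * A.1.1 * G) * G' = A.1.1
    rw [show G * (G' * A.1.1 * G) * G' = (G * G') * A.1.1 * (G * G') by simp only [Matrix.mul_assoc],
      h1, Matrix.one_mul, Matrix.mul_one]
  · refine Subtype.ext (Subtype.ext ?_)
    show G * (mat A * mat B) * G' = (G * mat A * G') * (G * mat B * G')
    rw [show (G * mat A * G') * (G * mat B * G') = G * mat A * (G' * G) * (mat B * G') by
      simp only [Matrix.mul_assoc], h2, Matrix.mul_one]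
    simp only [Matrix.mul_assoc]

include hF in
theorem card_GJ : Nat.card (GJ F q) = q ^ 3 * (q ^ 2 - 1) * (q ^ 3 + 1) := by
  obtain ⟨e⟩ := exists_iso hF
  rw [Nat.card_congr e.toEquiv]
  have h := card_SU hF 3 (by norm_num)
  simp only [Finset.prod_range_succ, Finset.prod_range_zero] at h
  norm_num at h
  refine Nat.eq_of_mul_eq_mul_left (Nat.succ_pos q) ?_
  rw [Nat.succ_eq_add_one, h]
  ring

end CfsgLib.SUThreePres
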