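import Mathlib
import Cfsg.Agent.SUThreePres.Model
import Cfsg.Agent.SUThreePres.FieldFacts
import Cfsg.Agent.SUThreePres.Borel

/-!
The relators for the Borel subgroup of `SU₃(q)`.
-/

set_option autoImplicit false
set_option linter.style.haveILetI false
set_option linter.unusedSectionVars false

open scoped commutatorElement

namespace CfsgLib.SUThreePres

open CfsgLib.Unitary

/-- The generator of the root group. -/
noncomputable def gU : FreeGroup (Fin 3) := FreeGroup.of 0
/-- The generator of the torus. -/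
noncomputable def gH : FreeGroup (Fin 3) := FreeGroup.of 1
/-- The Weyl generator. -/
noncomputable def gW : FreeGroup (Fin 3) := FreeGroup.of 2
/-- A generator of the centre of the root group, as a word. -/
noncomputable def gZ : FreeGroup (Fin 3) := ⁅gU, cj gH 1 gU⁆

theorem map_cj {P Q : Type*} [Group P] [Group Q] (f : P →* Q) (h x : P) (n : ℕ) :
    f (cj h n x) = cj (f h) n (f x) := by simp [cj]

theorem map_zSub {P Q : Type*} [Group P] [Group Q] (f : P →* Q) (z h : P) (e α : ℕ) :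
    (zSub z h e α).map f = zSub (f z) (f h) e α := by
  rw [zSub, zSub, MonoidHom.map_closure, ← Set.range_comp]
  congr 2
  funext i
  exact map_cj f h z _

theorem map_uSub {P Q : Type*} [Group P] [Group Q] (f : P →* Q) (u z h : P) (e α : ℕ) :
    (uSub u z h e α).map f = uSub (f u) (f z) (f h) e α := by
  rw [uSub, uSub, MonoidHom.map_closure, Set.image_union, ← Set.range_comp, ← Set.range_comp]
  congr 2 <;> (congr 1; funext i; exact map_cj f h _ _)

variable {F : Type*} [Field F] [Fintype F] {q : ℕ}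

/-- A parameter of the generator of the root group. -/
def beta0 (q : ℕ) (ζ : Fˣ) : F := ((ζ : F) ^ q / ζ) / (1 - (ζ : F) ^ q / ζ)

/-- The images of the three generators. -/
noncomputable def genHom (hF : Fintype.card F = q ^ 2) (ζ : Fˣ) : FreeGroup (Fin 3) →* GJ F q :=
  FreeGroup.lift ![uEl hF 1 (beta0 q ζ), hEl hF ζ, wEl hF]

/-- The multiplier of `gZ`. -/
def c0 (q : ℕ) (ζ : Fˣ) : F := theta q ζ - theta q ζ ^ q

variable (hF : Fintype.card F = q ^ 2) (ζ : Fˣ)

@[simp] theorem genHom_U : genHom hF ζ gU = uEl hF 1 (beta0 q ζ) := by simp [genHom, gU]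
@[simp] theorem genHom_H : genHom hF ζ gH = hEl hF ζ := by simp [genHom, gH]
@[simp] theorem genHom_W : genHom hF ζ gW = wEl hF := by simp [genHom, gW]

include hF

theorem c0_trace : c0 q ζ + c0 q ζ ^ q = 0 := by
  rw [c0, sub_pow_q hF, pow_q_q hF]; ring

theorem cj_uEl {a b : F} (h : Cond q a b) (n : ℕ) :
    cj (hEl hF ζ) n (uEl hF a b) = uEl hF (theta q ζ ^ n * a) (nu q ζ ^ n * b) := by
  have e : hEl hF ζ ^ n = hEl hF (ζ ^ n) := (map_pow _ _ _).symm
  rw [cj, e, hEl_conj hF _ h]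
  congr 1
  · rw [theta, div_pow, Units.val_pow_eq_pow_val, ← pow_mul, ← pow_mul, ← pow_mul, ← pow_mul,
      mul_comm n 2, mul_comm n q]
  · rw [nu, mul_pow, Units.val_pow_eq_pow_val, ← pow_mul, ← pow_mul, mul_comm n q]

theorem cond_cj {a b : F} (h : Cond q a b) (n : ℕ) :
    Cond q (theta q ζ ^ n * a) (nu q ζ ^ n * b) := by
  induction n with
  | zero => simpa using h
  | succ n ih =>
    rw [pow_succ', pow_succ', mul_assoc, mul_assoc]
    exact cond_smul hF ζ ih

variable (hζ : ∀ u : Fˣ, u ∈ Subgroup.zpowers ζ)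
include hζ

theorem theta_ne_conj (h2 : q ≠ 2) : c0 q ζ ≠ 0 := by
  intro h
  have hq2 := two_le_q hF
  have hz0 : (ζ : F) ≠ 0 := ζ.ne_zero
  rw [c0, sub_eq_zero] at h
  have h1 : (ζ : F) ^ 3 = ((ζ : F) ^ q) ^ 3 := by
    rw [theta_pow_q hF, theta, ← pow_mul, mul_comm 2 q, pow_mul,
      div_eq_div_iff (pow_ne_zero _ hz0) hz0] at h
    linear_combination h
  have hm : q * 3 = 3 + (q - 1) * 3 := by omega
  rw [← pow_mul, hm, pow_add] at h1
  have h3 := orderOf_dvd_of_pow_eq_one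
    (mul_left_cancel₀ (pow_ne_zero 3 hz0) (by rw [← h1, mul_one]) : (ζ : F) ^ ((q - 1) * 3) = 1)
  rw [orderOf_gen hF ζ hζ] at h3
  have h4 := Nat.le_of_dvd (by norm_num) (Nat.dvd_of_mul_dvd_mul_left (by omega) h3)
  omega

theorem eta_ne_one (h2 : 2 ≤ q) : (1 : F) - (ζ : F) ^ q / ζ ≠ 0 := by
  intro h
  have hz0 : (ζ : F) ≠ 0 := ζ.ne_zero
  rw [sub_eq_zero, eq_div_iff hz0, one_mul] at h
  have h1 : (ζ : F) ^ (q - 1) = 1 := mul_right_cancel₀ hz0 (by
    rw [← pow_succ, Nat.sub_add_cancel (by omega), one_mul]; exact h.symm)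
  have h3 := orderOf_dvd_of_pow_eq_one h1
  rw [orderOf_gen hF ζ hζ] at h3
  have h4 : q - 1 < (q - 1) * (q + 1) := by
    rw [Nat.mul_succ]
    have : 1 ≤ (q - 1) * q := Nat.one_le_iff_ne_zero.mpr (Nat.mul_ne_zero (by omega) (by omega))
    omega
  have := Nat.le_of_dvd (by omega) h3
  omega

theorem cond_base : Cond q (1 : F) (beta0 q ζ) := by
  have hq2 := two_le_q hF
  have h1 := eta_ne_one hF ζ hζ hq2
  have hz0 : (ζ : F) ≠ 0 := ζ.ne_zero
  have hzq : (ζ : F) ^ q ≠ 0 := pow_ne_zero _ hz0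
  have h2 : (ζ : F) - (ζ : F) ^ q ≠ 0 := by
    intro h; rw [sub_eq_zero] at h; rw [← h, div_self hz0, sub_self] at h1; exact h1 rfl
  have h3 : (ζ : F) ^ q - (ζ : F) ≠ 0 := fun h => h2 (by linear_combination -h)
  unfold Cond beta0
  rw [div_pow, div_pow, sub_pow_q hF, div_pow, pow_q_q hF, one_pow, mul_one]
  field_simp
  ring

theorem genHom_Z : genHom hF ζ gZ = uEl hF 0 (c0 q ζ) := by
  have h := cond_base hF ζ hζ
  rw [gZ, map_commutatorElement, map_cj, genHom_U, genHom_H, cj_uEl hF ζ h, commutatorElement_def,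
    commutator_uEl hF h (cond_cj hF ζ h 1)]
  simp [c0]

/-! ### Membership in the model -/

section Model

variable (hq2 : q ≠ 2) {e α : ℕ}
  (hν : ∀ A : AddSubgroup F, (∀ i < e, (nu q ζ ^ α) ^ i ∈ A) → ∀ y : F, y ^ q = y → y ∈ A)
include hq2 hν

theorem central_mem {x : F} (hx : x + x ^ q = 0) :
    uEl hF 0 x ∈ (zSub gZ gH e α).map (genHom hF ζ) := by
  set Z := (zSub gZ gH e α).map (genHom hF ζ)
  have hc := theta_ne_conj hF ζ hζ hq2
  have ht := c0_trace hF ζ
  let A : AddSubgroup F :=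
    { carrier := {s | s ^ q = s ∧ uEl hF 0 (c0 q ζ * s) ∈ Z}
      zero_mem' := ⟨zero_pow_q hF, by rw [mul_zero, uEl_zero]; exact one_mem _⟩
      add_mem' := fun {s t} hs ht' => by
        obtain ⟨hs1, hs2⟩ := hs
        obtain ⟨ht1, ht2⟩ := ht'
        refine ⟨by rw [add_pow_q hF, hs1, ht1], ?_⟩
        have h := mul_mem hs2 ht2
        rw [uEl_mul hF (cond_central.mpr (by rw [mul_pow, hs1, ← add_mul, ht, zero_mul]))
          (cond_central.mpr (by rw [mul_pow, ht1, ← add_mul, ht, zero_mul]))] at h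
        simpa [zero_pow_q hF, mul_add] using h
      neg_mem' := fun {s} hs => by
        obtain ⟨hs1, hs2⟩ := hs
        refine ⟨by rw [neg_pow_q hF, hs1], ?_⟩
        have h := inv_mem hs2
        rw [uEl_inv hF (cond_central.mpr (by rw [mul_pow, hs1, ← add_mul, ht, zero_mul])),
          neg_zero, mul_pow, hs1] at h
        rw [mul_neg, ← neg_mul, show -c0 q ζ = c0 q ζ ^ q by linear_combination -ht]
        exact h }
  have hfix : (x / c0 q ζ) ^ q = x / c0 q ζ := by
    rw [div_pow, eq_neg_of_add_eq_zero_right hx, eq_neg_of_add_eq_zero_right ht, neg_div_neg_eq]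
  have hmem := hν A (fun i hi => ⟨by
    rw [← pow_mul (nu q ζ), ← pow_mul, mul_comm, pow_mul, nu_pow_q hF], by
    refine ⟨cj gH (α * i) gZ, Subgroup.subset_closure ⟨⟨i, hi⟩, rfl⟩, ?_⟩
    rw [map_cj, genHom_Z hF ζ hζ, genHom_H,
      cj_uEl hF ζ (cond_central.mpr ht), mul_zero, ← pow_mul, mul_comm]⟩) _ hfix
  have := hmem.2
  rwa [mul_div_cancel₀ _ hc] at this

variable {p : ℕ} [Fact p.Prime] [Algebra (ZMod p) F] (he : Module.finrank (ZMod p) F ≤ 2 * e)
  (hθ : Algebra.adjoin (ZMod p) {theta q ζ ^ α} = ⊤)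
include he hθ

theorem root_mem {a b : F} (hab : Cond q a b) :
    uEl hF a b ∈ (uSub gU gZ gH e α).map (genHom hF ζ) := by
  set U := (uSub gU gZ gH e α).map (genHom hF ζ) with hU
  have hb := cond_base hF ζ hζ
  have hcen : ∀ x : F, x + x ^ q = 0 → uEl hF 0 x ∈ U := fun x hx =>
    Subgroup.map_mono zSub_le_uSub (central_mem hF ζ hζ hq2 hν hx)
  let A : AddSubgroup F :=
    { carrier := {a | ∃ b, Cond q a b ∧ uEl hF a b ∈ U}
      zero_mem' := ⟨0, cond_zero hF, by rw [uEl_zero]; exact one_mem _⟩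
      add_mem' := fun {a c} ⟨b, h1, h2⟩ ⟨d, h3, h4⟩ =>
        ⟨_, cond_add hF h1 h3, uEl_mul hF h1 h3 ▸ mul_mem h2 h4⟩
      neg_mem' := fun {a} ⟨b, h1, h2⟩ => ⟨_, cond_inv hF h1, uEl_inv hF h1 ▸ inv_mem h2⟩ }
  obtain ⟨b', hb', hmem⟩ := mem_of_powers_top (theta q ζ ^ α) hθ A (fun i hi =>
    ⟨nu q ζ ^ (α * i) * beta0 q ζ, by
      rw [← pow_mul]; simpa using cond_cj hF ζ hb (α * i), by
      refine ⟨cj gH (α * i) gU, Subgroup.subset_closure (Or.inl ⟨⟨i, lt_of_lt_of_le hi he⟩, rfl⟩), ?_⟩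
      rw [map_cj, genHom_U, genHom_H, cj_uEl hF ζ hb, ← pow_mul, mul_one]⟩) a
  have hd : (b - b') + (b - b') ^ q = 0 := by
    unfold Cond at hab hb'
    rw [sub_pow_q hF]
    linear_combination hab - hb'
  have := mul_mem hmem (hcen _ hd)
  rwa [uEl_mul hF hb' (cond_central.mpr hd), zero_pow_q hF, add_zero, mul_zero, sub_zero,
    add_sub_cancel] at this

theorem root_mem_closure {a b : F} (hab : Cond q a b) :
    uEl hF a b ∈ (Subgroup.closure ({gU, gH} : Set (FreeGroup (Fin 3)))).map (genHom hF ζ) := by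
  refine Subgroup.map_mono ?_ (root_mem hF ζ hζ hq2 hν he hθ hab)
  set H := Subgroup.closure ({gU, gH} : Set (FreeGroup (Fin 3)))
  have hu : gU ∈ H := Subgroup.subset_closure (by simp)
  have hh : gH ∈ H := Subgroup.subset_closure (by simp)
  have hc : ∀ n x, x ∈ H → cj gH n x ∈ H := fun n x hx =>
    mul_mem (mul_mem (pow_mem hh n) hx) (inv_mem (pow_mem hh n))
  have hz : gZ ∈ H :=
    mul_mem (mul_mem (mul_mem hu (hc 1 _ hu)) (inv_mem hu)) (inv_mem (hc 1 _ hu))
  refine (Subgroup.closure_le _).mpr ?_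
  rintro _ (⟨i, rfl⟩ | ⟨i, rfl⟩)
  · exact hc _ _ hu
  · exact hc _ _ hz

end Model

/-! ### The relators -/

/-- The conclusion drawn from the relators of the Borel subgroup. -/
def GivesBorel (hF : Fintype.card F = q ^ 2) (ζ : Fˣ) (p e α : ℕ)
    (L : List (FreeGroup (Fin 3))) : Prop :=
  (∀ r ∈ L, genHom hF ζ r = 1) ∧ ∀ {P : Type} [Group P] (φ : FreeGroup (Fin 3) →* P),
    (∀ r ∈ L, φ r = 1) → BorelData (φ gU) (φ gZ) (φ gH) p e α ((q - 1) * (q + 1))

omit hζ in
theorem genHom_H_pow : genHom hF ζ (gH ^ ((q - 1) * (q + 1))) = 1 := by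
  rw [map_pow, genHom_H, ← map_pow, ← card_units_eq hF, pow_card_eq_one', map_one]

theorem exists_borel_rels {p e : ℕ} [hp : Fact p.Prime] [Algebra (ZMod p) F] (he : q = p ^ e)
    (h2 : q ≠ 2) :
    ∃ α L, List.length L ≤ 17 ∧ GivesBorel hF ζ p e α L ∧
      ∀ a b : F, Cond q a b → uEl hF a b ∈
        (Subgroup.closure ({gU, gH} : Set (FreeGroup (Fin 3)))).map (genHom hF ζ) := by
  classical
  haveI : CharP F p := (Algebra.charP_iff (ZMod p) F p).1 inferInstance
  have hq2 := two_le_q hF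
  have hp2 := hp.out.two_le
  have hcard := CfsgLib.SLTwoPres.card_field (p := p) (F := F)
  rw [hF, he, ← pow_mul] at hcard
  have hfr : Module.finrank (ZMod p) F ≤ 2 * e :=
    (Nat.pow_right_injective hp2 hcard).ge.trans (mul_comm e 2).le
  have he0 : 0 < e := by
    rcases Nat.eq_zero_or_pos e with h | h
    · subst h; simp at he; omega
    · exact h
  have hN0 : 0 < (q - 1) * (q + 1) := Nat.mul_pos (by omega) (by omega)
  have hb := cond_base hF ζ hζ
  have hc0 := c0_trace hF ζ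
  have hcz : Cond q 0 (c0 q ζ) := cond_central.mpr hc0
  have hνq := nu_pow_q hF ζ
  -- general facts about the two layers of the model
  have hZimg : ∀ n : ℕ, Cond q 0 (nu q ζ ^ n * c0 q ζ) := fun n => by
    simpa using cond_cj hF ζ hcz n
  have hZcomm : ∀ n : ℕ, genHom hF ζ (⁅gZ, cj gH n gZ⁆) = 1 := fun n => by
    rw [map_commutatorElement, map_cj, genHom_Z hF ζ hζ, genHom_H, cj_uEl hF ζ hcz, mul_zero,
      commutatorElement_def, commutator_uEl hF hcz (hZimg n)]
    simp [zero_pow_q hF, uEl_zero]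
  have hUZ : ∀ n : ℕ, genHom hF ζ (⁅gU, cj gH n gZ⁆) = 1 := fun n => by
    rw [map_commutatorElement, map_cj, genHom_Z hF ζ hζ, genHom_U, genHom_H, cj_uEl hF ζ hcz,
      mul_zero, commutatorElement_def, commutator_uEl hF hb (hZimg n)]
    simp [zero_pow_q hF, uEl_zero]
  have hupow : ∀ {a b : F}, Cond q a b → ∀ k : ℕ, ∃ b', Cond q ((k : F) * a) b' ∧
      uEl hF a b ^ k = uEl hF ((k : F) * a) b' := by
    intro a b hab k
    induction k with
    | zero => exact ⟨0, by simpa using cond_zero hF, by simp [uEl_zero]⟩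
    | succ k ih =>
      obtain ⟨b', h1, h2⟩ := ih
      refine ⟨_, by rw [Nat.cast_succ, add_mul, one_mul]; exact cond_add hF h1 hab, ?_⟩
      rw [pow_succ, h2, uEl_mul hF h1 hab, Nat.cast_succ, add_mul, one_mul]
  have hzp : genHom hF ζ (gZ ^ p) = 1 := by
    rw [map_pow, genHom_Z hF ζ hζ]
    have h : ∀ k : ℕ, uEl hF 0 (c0 q ζ) ^ k = uEl hF 0 ((k : F) * c0 q ζ) := by
      intro k
      induction k with
      | zero => simp [uEl_zero]
      | succ k ih =>
        rw [pow_succ, ih, uEl_mul hF (cond_central.mpr (by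
          rw [mul_pow, show ((k : F)) ^ q = (k : F) from map_natCast (conjHom hF) k, ← mul_add, hc0,
            mul_zero])) hcz]
        congr 1 <;> push_cast <;> simp [zero_pow_q hF, add_mul]
    rw [h, CharP.cast_eq_zero, zero_mul, uEl_zero]
  have hν1 : ∀ {y : F}, y ^ q = y → ∀ A : AddSubgroup F, (∀ i < e, nu q ζ ^ i ∈ A) → y ∈ A :=
    fun hy A hA => nu_spans hF ζ hζ he A hA hy
  obtain ⟨βz, hβz⟩ : ∃ βz : ℕ, nu q ζ = 1 + nu q ζ ^ βz := by
    have hne : nu q ζ - 1 ≠ 0 := by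
      intro h
      rw [sub_eq_zero] at h
      have h' : (ζ : F) ^ (q + 1) = 1 := (pow_succ _ _).trans h
      have h3 := orderOf_dvd_of_pow_eq_one h'
      rw [orderOf_gen hF ζ hζ] at h3
      have h4 : (q - 1) * (q + 1) ∣ 1 * (q + 1) := by simpa using h3
      have := Nat.le_of_dvd (by omega) (Nat.dvd_of_mul_dvd_mul_right (Nat.succ_pos q) h4)
      omega
    obtain ⟨k, hk⟩ := exists_nu_pow hF ζ hζ (r := nu q ζ - 1)
      (by rw [sub_pow_q hF, one_pow, hνq]) hne
    exact ⟨k, by rw [← hk]; ring⟩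
  have hzA : genHom hF ζ (cj gH 1 gZ * (gZ * cj gH βz gZ)⁻¹) = 1 := by
    rw [map_mul, map_inv, mul_inv_eq_one, map_mul, map_cj, map_cj, genHom_Z hF ζ hζ, genHom_H,
      cj_uEl hF ζ hcz, cj_uEl hF ζ hcz, mul_zero, mul_zero, uEl_mul hF hcz (hZimg βz), pow_one]
    congr 1
    · simp
    · nth_rewrite 1 [hβz]
      simp [zero_pow_q hF, add_mul]
  have hcenT : ∀ n : ℕ, (nu q ζ ^ n * c0 q ζ) + (nu q ζ ^ n * c0 q ζ) ^ q = 0 := fun n =>
    cond_central.mp (hZimg n)
  have hpre : ∀ {S : Subgroup (FreeGroup (Fin 3))} {x : GJ F q}, x ∈ S.map (genHom hF ζ) →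
      ∃ W ∈ S, genHom hF ζ W = x := fun h => h
  by_cases h8 : q = 8 ∨ q = 5
  · -- the fields with 64 and with 25 elements
    have e3 : e ≤ 3 := by
      by_contra hlt
      have h4 : p ^ 4 ≤ p ^ e := Nat.pow_le_pow_right (by omega) (by omega)
      have h16 : 2 ^ 4 ≤ p ^ 4 := Nat.pow_le_pow_left hp2 4
      rw [← he] at h4
      omega
    have hθ : Algebra.adjoin (ZMod p) {theta q ζ ^ 1} = ⊤ := by
      rw [pow_one]; exact theta_spans hF ζ hζ h2
    have hν : ∀ A : AddSubgroup F, (∀ i < e, (nu q ζ ^ 1) ^ i ∈ A) → ∀ y : F, y ^ q = y → y ∈ A :=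
      fun A hA y hy => hν1 hy A (fun i hi => by simpa using hA i hi)
    have hz : ∀ {x : F}, x + x ^ q = 0 → uEl hF 0 x ∈ (zSub gZ gH e 1).map (genHom hF ζ) :=
      fun hx => central_mem hF ζ hζ h2 hν hx
    have hu : ∀ {a b : F}, Cond q a b → uEl hF a b ∈ (uSub gU gZ gH e 1).map (genHom hF ζ) :=
      fun hx => root_mem hF ζ hζ h2 hν hfr hθ hx
    have hmemZ : ∀ n : ℕ, ∃ W ∈ zSub gZ gH e 1, genHom hF ζ W = genHom hF ζ (cj gH n gZ) :=
      fun n => hpre (by
        rw [map_cj, genHom_Z hF ζ hζ, genHom_H, cj_uEl hF ζ hcz, mul_zero]; exact hz (hcenT n))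
    have hmemU : ∀ n : ℕ, ∃ W ∈ uSub gU gZ gH e 1, genHom hF ζ W = genHom hF ζ (cj gH n gU) :=
      fun n => hpre (by
        rw [map_cj, genHom_U, genHom_H, cj_uEl hF ζ hb]; exact hu (cond_cj hF ζ hb n))
    choose WZ hWZm hWZ using hmemZ
    choose WU hWUm hWU using hmemU
    obtain ⟨Wp, hWpm, hWp⟩ : ∃ W ∈ zSub gZ gH e 1, genHom hF ζ W = genHom hF ζ (gU ^ p) := hpre (by
      obtain ⟨b', h1, h3⟩ := hupow hb p
      rw [map_pow, genHom_U, h3, CharP.cast_eq_zero, zero_mul]
      exact hz (cond_central.mp (by simpa using h1)))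
    have hmemC : ∀ i : ℕ, ∃ W ∈ zSub gZ gH e 1,
        genHom hF ζ W = genHom hF ζ (⁅gU, cj gH (1 * i) gU⁆) := fun i => hpre (by
      rw [map_commutatorElement, map_cj, genHom_U, genHom_H, cj_uEl hF ζ hb, commutatorElement_def,
        commutator_uEl hF hb (cond_cj hF ζ hb _)]
      refine hz ?_
      simp only [one_pow, mul_one, one_mul, sub_pow_q hF, mul_pow, pow_q_q hF]
      ring)
    choose WC hWCm hWC using hmemC
    refine ⟨1, [gH ^ ((q - 1) * (q + 1)), gZ ^ p, cj gH 1 gZ * (gZ * cj gH βz gZ)⁻¹,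
        ⁅gZ, cj gH βz gZ⁆, cj gH (1 * e) gZ * (WZ (1 * e))⁻¹, cj gH 1 gZ * (WZ 1)⁻¹,
        gU ^ p * Wp⁻¹, cj gH (1 * (2 * e)) gU * (WU (1 * (2 * e)))⁻¹] ++
      [cj gH 1 gU * (WU 1)⁻¹] ++ (List.range 3).map (fun i => ⁅gU, cj gH (1 * i) gZ⁆) ++
      (List.range 5).map (fun i => ⁅gU, cj gH (1 * (i + 1)) gU⁆ * (WC (i + 1))⁻¹), by simp, ⟨?_, ?_⟩,
      fun a b hab => root_mem_closure hF ζ hζ h2 hν hfr hθ hab⟩
    · intro r hr
      simp only [List.mem_append, List.mem_cons, List.not_mem_nil, or_false, List.mem_map,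
        List.mem_range] at hr
      rcases hr with (((rfl | rfl | rfl | rfl | rfl | rfl | rfl | rfl) | rfl) | ⟨i, -, rfl⟩) | ⟨i, -, rfl⟩
      · exact genHom_H_pow hF ζ
      · exact hzp
      · exact hzA
      · exact hZcomm βz
      · rw [map_mul, map_inv, hWZ, mul_inv_cancel]
      · rw [map_mul, map_inv, hWZ, mul_inv_cancel]
      · rw [map_mul, map_inv, hWp, mul_inv_cancel]
      · rw [map_mul, map_inv, hWU, mul_inv_cancel]
      · rw [map_mul, map_inv, hWU, mul_inv_cancel]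
      · exact hUZ _
      · rw [map_mul, map_inv, hWC, mul_inv_cancel]
    · intro P _ φ hr
      have hmap : ∀ {W}, W ∈ zSub gZ gH e 1 → φ W ∈ zSub (φ gZ) (φ gH) e 1 := fun hW =>
        map_zSub φ gZ gH e 1 ▸ Subgroup.mem_map_of_mem φ hW
      have hmapU : ∀ {W}, W ∈ uSub gU gZ gH e 1 → φ W ∈ uSub (φ gU) (φ gZ) (φ gH) e 1 := fun hW =>
        map_uSub φ gU gZ gH e 1 ▸ Subgroup.mem_map_of_mem φ hW
      have heq : ∀ {a W}, φ (a * W⁻¹) = 1 → φ a = φ W := fun h => by
        rwa [map_mul, map_inv, mul_inv_eq_one] at h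
      have hA := hr (cj gH 1 gZ * (gZ * cj gH βz gZ)⁻¹) (by simp)
      have hB := hr ⁅gZ, cj gH βz gZ⁆ (by simp)
      have hA' := heq hA
      rw [map_mul, map_cj, map_cj] at hA'
      rw [map_commutatorElement, map_cj, commutatorElement_eq_one_iff_commute] at hB
      have hN : φ gH ^ ((q - 1) * (q + 1)) = 1 := by rw [← map_pow]; exact hr _ (by simp)
      refine
        { z_pow := by rw [← map_pow]; exact hr _ (by simp)
          z_comm := fun n => by
            have := CfsgLib.SLTwoPres.commute_crw (φ gZ) (φ gH) 1 βz hA' hB n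
            rwa [pow_one] at this
          z_alpha := by
            rw [← map_cj φ, heq (hr (cj gH (1 * e) gZ * (WZ (1 * e))⁻¹) (by simp))]
            exact hmap (hWZm _)
          z_one := by
            rw [← map_cj φ, heq (hr (cj gH 1 gZ * (WZ 1)⁻¹) (by simp))]
            exact hmap (hWZm _)
          p_pos := by omega
          e_pos := he0
          N_pos := hN0
          h_pow := hN
          uz := fun i hi => by
            rw [← map_cj φ, ← commutatorElement_eq_one_iff_commute, ← map_commutatorElement]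
            exact hr _ (List.mem_append_left _ (List.mem_append_right _
              (List.mem_map.mpr ⟨i, List.mem_range.mpr (by omega), rfl⟩)))
          u_pow := by
            rw [← map_pow, heq (hr (gU ^ p * Wp⁻¹) (by simp))]
            exact hmap hWpm
          uu := fun i hi => by
            rcases Nat.eq_zero_or_pos i with rfl | hi0
            · rw [mul_zero, cj_zero, commutatorElement_self]; exact one_mem _
            · obtain ⟨j, rfl⟩ : ∃ j, i = j + 1 := ⟨i - 1, by omega⟩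
              rw [← map_cj φ, ← map_commutatorElement,
                heq (hr (⁅gU, cj gH (1 * (j + 1)) gU⁆ * (WC (j + 1))⁻¹)
                  (List.mem_append_right _ (List.mem_map.mpr
                    ⟨j, List.mem_range.mpr (by omega), rfl⟩)))]
              exact hmap (hWCm _)
          u_alpha := by
            rw [← map_cj φ, heq (hr (cj gH (1 * (2 * e)) gU * (WU (1 * (2 * e)))⁻¹) (by simp))]
            exact hmapU (hWUm _)
          u_one := by
            rw [← map_cj φ, heq (hr (cj gH 1 gU * (WU 1)⁻¹) (by simp))]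
            exact hmapU (hWUm _) }
  · -- the general case
    obtain ⟨α, β, hab, hνβ, hθ, hν⟩ := exists_pair hF ζ hζ he h2 (fun h => h8 (Or.inr h)) (fun h => h8 (Or.inl h))
    have hz : ∀ {x : F}, x + x ^ q = 0 → uEl hF 0 x ∈ (zSub gZ gH e α).map (genHom hF ζ) :=
      fun hx => central_mem hF ζ hζ h2 hν hx
    have hu : ∀ {a b : F}, Cond q a b → uEl hF a b ∈ (uSub gU gZ gH e α).map (genHom hF ζ) :=
      fun hx => root_mem hF ζ hζ h2 hν hfr hθ hx
    have hmemZ : ∀ n : ℕ, ∃ W ∈ zSub gZ gH e α, genHom hF ζ W = genHom hF ζ (cj gH n gZ) :=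
      fun n => hpre (by
        rw [map_cj, genHom_Z hF ζ hζ, genHom_H, cj_uEl hF ζ hcz, mul_zero]; exact hz (hcenT n))
    have hmemU : ∀ n : ℕ, ∃ W ∈ uSub gU gZ gH e α, genHom hF ζ W = genHom hF ζ (cj gH n gU) :=
      fun n => hpre (by
        rw [map_cj, genHom_U, genHom_H, cj_uEl hF ζ hb]; exact hu (cond_cj hF ζ hb n))
    choose WZ hWZm hWZ using hmemZ
    choose WU hWUm hWU using hmemU
    obtain ⟨Wp, hWpm, hWp⟩ : ∃ W ∈ zSub gZ gH e α, genHom hF ζ W = genHom hF ζ (gU ^ p) := hpre (by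
      obtain ⟨b', h1, h3⟩ := hupow hb p
      rw [map_pow, genHom_U, h3, CharP.cast_eq_zero, zero_mul]
      exact hz (cond_central.mp (by simpa using h1)))
    obtain ⟨Wc, hWcm, hWc⟩ : ∃ W ∈ zSub gZ gH e α,
        genHom hF ζ W = genHom hF ζ (⁅gU, cj gH β gU⁆) := hpre (by
      rw [map_commutatorElement, map_cj, genHom_U, genHom_H, cj_uEl hF ζ hb, commutatorElement_def,
        commutator_uEl hF hb (cond_cj hF ζ hb _)]
      refine hz ?_
      simp only [one_pow, mul_one, one_mul, sub_pow_q hF, mul_pow, pow_q_q hF]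
      ring)
    obtain ⟨Wa, hWam, hWa⟩ : ∃ W ∈ zSub gZ gH e α,
        genHom hF ζ W = genHom hF ζ ((gU * cj gH β gU)⁻¹ * cj gH α gU) := hpre (by
      have h1 := cond_cj hF ζ hb β
      have h3 := cond_cj hF ζ hb α
      have h4 := cond_add hF hb h1
      rw [map_mul, map_inv, map_mul, map_cj, map_cj, genHom_U, genHom_H, cj_uEl hF ζ hb,
        cj_uEl hF ζ hb, uEl_mul hF hb h1, uEl_inv hF h4, uEl_mul hF (cond_inv hF h4) h3]
      have h5 := cond_add hF (cond_inv hF h4) h3
      rw [show -(1 + theta q ζ ^ β * 1) + theta q ζ ^ α * 1 = 0 by rw [hab]; ring] at h5 ⊢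
      exact hz (cond_central.mp h5))
    refine ⟨α, [gH ^ ((q - 1) * (q + 1)), gZ ^ p, cj gH 1 gZ * (gZ * cj gH βz gZ)⁻¹,
        ⁅gZ, cj gH βz gZ⁆, cj gH (α * e) gZ * (WZ (α * e))⁻¹, cj gH 1 gZ * (WZ 1)⁻¹,
        gU ^ p * Wp⁻¹, cj gH (α * (2 * e)) gU * (WU (α * (2 * e)))⁻¹] ++
      [cj gH 1 gU * (WU 1)⁻¹, ⁅gU, gZ⁆, cj gH β gZ * gZ⁻¹,
        (gU * cj gH β gU)⁻¹ * cj gH α gU * Wa⁻¹, ⁅gU, cj gH β gU⁆ * Wc⁻¹], by simp, ⟨?_, ?_⟩,
      fun a b hab' => root_mem_closure hF ζ hζ h2 hν hfr hθ hab'⟩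
    · intro r hr
      simp only [List.mem_append, List.mem_cons, List.not_mem_nil, or_false] at hr
      rcases hr with (rfl | rfl | rfl | rfl | rfl | rfl | rfl | rfl) | rfl | rfl | rfl | rfl | rfl
      · exact genHom_H_pow hF ζ
      · exact hzp
      · exact hzA
      · exact hZcomm βz
      · rw [map_mul, map_inv, hWZ, mul_inv_cancel]
      · rw [map_mul, map_inv, hWZ, mul_inv_cancel]
      · rw [map_mul, map_inv, hWp, mul_inv_cancel]
      · rw [map_mul, map_inv, hWU, mul_inv_cancel]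
      · rw [map_mul, map_inv, hWU, mul_inv_cancel]
      · have := hUZ 0
        rwa [cj_zero] at this
      · rw [map_mul, map_inv, map_cj, genHom_Z hF ζ hζ, genHom_H, cj_uEl hF ζ hcz, hνβ, one_mul,
          mul_zero, mul_inv_cancel]
      · rw [map_mul, map_inv, hWa, mul_inv_cancel]
      · rw [map_mul, map_inv, hWc, mul_inv_cancel]
    · intro P _ φ hr
      have hmap : ∀ {W}, W ∈ zSub gZ gH e α → φ W ∈ zSub (φ gZ) (φ gH) e α := fun hW =>
        map_zSub φ gZ gH e α ▸ Subgroup.mem_map_of_mem φ hW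
      have hmapU : ∀ {W}, W ∈ uSub gU gZ gH e α → φ W ∈ uSub (φ gU) (φ gZ) (φ gH) e α := fun hW =>
        map_uSub φ gU gZ gH e α ▸ Subgroup.mem_map_of_mem φ hW
      have heq : ∀ {a W}, φ (a * W⁻¹) = 1 → φ a = φ W := fun h => by
        rwa [map_mul, map_inv, mul_inv_eq_one] at h
      have hA := hr (cj gH 1 gZ * (gZ * cj gH βz gZ)⁻¹) (by simp)
      have hB := hr ⁅gZ, cj gH βz gZ⁆ (by simp)
      have hA' := heq hA
      rw [map_mul, map_cj, map_cj] at hA'
      rw [map_commutatorElement, map_cj, commutatorElement_eq_one_iff_commute] at hB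
      have hN : φ gH ^ ((q - 1) * (q + 1)) = 1 := by rw [← map_pow]; exact hr _ (by simp)
      have DZ : ZData (φ gZ) (φ gH) p e α :=
        { z_pow := by rw [← map_pow]; exact hr _ (by simp)
          z_comm := fun n => by
            have := CfsgLib.SLTwoPres.commute_crw (φ gZ) (φ gH) 1 βz hA' hB n
            rwa [pow_one] at this
          z_alpha := by
            rw [← map_cj φ, heq (hr (cj gH (α * e) gZ * (WZ (α * e))⁻¹) (by simp))]
            exact hmap (hWZm _)
          z_one := by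
            rw [← map_cj φ, heq (hr (cj gH 1 gZ * (WZ 1)⁻¹) (by simp))]
            exact hmap (hWZm _) }
      have huz0 : Commute (φ gU) (φ gZ) := by
        rw [← commutatorElement_eq_one_iff_commute, ← map_commutatorElement]
        exact hr _ (by simp)
      have hfix : cj (φ gH) β (φ gZ) = φ gZ := by
        rw [← map_cj φ]
        exact heq (hr _ (by simp))
      have hrel : ∃ y ∈ zSub (φ gZ) (φ gH) e α,
          cj (φ gH) α (φ gU) = φ gU * cj (φ gH) β (φ gU) * y :=
        ⟨φ Wa, hmap hWam, by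
          rw [← heq (hr ((gU * cj gH β gU)⁻¹ * cj gH α gU * Wa⁻¹) (by simp)), map_mul, map_inv,
            map_mul, map_cj, map_cj, mul_inv_cancel_left]⟩
      have hcomm : ⁅φ gU, cj (φ gH) β (φ gU)⁆ ∈ zSub (φ gZ) (φ gH) e α := by
        rw [← map_cj φ, ← map_commutatorElement, heq (hr (⁅gU, cj gH β gU⁆ * Wc⁻¹) (by simp))]
        exact hmap hWcm
      have huz : ∀ i < e, Commute (φ gU) (cj (φ gH) (α * i) (φ gZ)) := fun i _ =>
        DZ.commute_of_crw hN hN0 hfix huz0 hrel
          (fun x hx y hy => DZ.commute_zSub x hx y hy) he0 i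
      exact
        { toZData := DZ
          p_pos := by omega
          e_pos := he0
          N_pos := hN0
          h_pow := hN
          uz := huz
          u_pow := by
            rw [← map_pow, heq (hr (gU ^ p * Wp⁻¹) (by simp))]
            exact hmap hWpm
          uu := fun i _ => DZ.commutator_of_crw hN hN0 he0 huz hrel hcomm i
          u_alpha := by
            rw [← map_cj φ, heq (hr (cj gH (α * (2 * e)) gU * (WU (α * (2 * e)))⁻¹) (by simp))]
            exact hmapU (hWUm _)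
          u_one := by
            rw [← map_cj φ, heq (hr (cj gH 1 gU * (WU 1)⁻¹) (by simp))]
            exact hmapU (hWUm _) }

end CfsgLib.SUThreePres
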