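import Mathlib
import Cfsg.Agent.SUThreePres.Root

/-!
The presentation of `SU₃(q)`: the relators for the Borel subgroup, two for the Weyl element and
four Bruhat relators, which propagate along a multiplication on the elements of norm one.
-/

set_option autoImplicit false
set_option linter.style.haveILetI false
set_option linter.unusedSectionVars false

open scoped commutatorElement

namespace CfsgLib.SUThreePres

open CfsgLib.Unitary

variable {F : Type*} [Field F] [Fintype F] {q : ℕ} (hF : Fintype.card F = q ^ 2)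

/-- The pairs parametrising the root group. -/
abbrev Pair (F : Type*) [Field F] (q : ℕ) := {x : F × F // Cond q x.1 x.2}

include hF

theorem card_pair : q ^ 3 ≤ Nat.card (Pair F q) := by
  classical
  have hex : ∀ a : F, ∃ b, Cond q a b := fun a => by
    obtain ⟨b, hb⟩ := exists_trace_eq hF (a := -(a * a ^ q))
      (by rw [neg_pow_q hF, mul_pow, pow_q_q hF, mul_comm])
    exact ⟨b, by unfold Cond; linear_combination hb⟩
  choose bs hbs using hex
  let f : F × {x : F // x + x ^ q = 0} → Pair F q := fun x =>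
    ⟨(x.1, bs x.1 + x.2.1), by
      have h := hbs x.1
      have h' := x.2.2
      unfold Cond at *
      rw [add_pow_q hF]
      linear_combination h + h'⟩
  have hf : Function.Injective f := by
    intro x y hxy
    have h1 := congrArg (fun z : Pair F q => z.1.1) hxy
    have h2 := congrArg (fun z : Pair F q => z.1.2) hxy
    simp only [f] at h1 h2
    rw [h1, add_right_inj] at h2
    exact Prod.ext h1 (Subtype.ext h2)
  have := Nat.card_le_card_of_injective f hf
  rw [Nat.card_prod, card_trace_zero hF, Nat.card_eq_fintype_card, hF] at this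
  rwa [pow_succ]

theorem uEl_hEl_inj {a b a' b' : F} {μ μ' : Fˣ} (h : Cond q a b) (h' : Cond q a' b')
    (e : uEl hF a b * hEl hF μ = uEl hF a' b' * hEl hF μ') : a = a' ∧ b = b' ∧ μ = μ' := by
  have e' := congrArg mat e
  rw [mat_mul, mat_mul, mat_uEl hF h, mat_uEl hF h', mat_hEl, mat_hEl] at e'
  have hμ : μ = μ' := Units.ext (by
    have := congrFun (congrFun e' 0) 0
    simpa [uMat, hMat, Matrix.mul_apply, Fin.sum_univ_three] using this)
  subst hμ
  obtain ⟨h1, h2⟩ := uEl_inj hF h h' (mul_right_cancel e)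
  exact ⟨h1, h2, rfl⟩

/-- The monomorphism property on the Borel subgroup and its normal form. -/
theorem borel_iso {P : Type*} [Group P] (π : P →* GJ F q) (H : Subgroup P)
    [Finite H] (hH : Nat.card H ≤ q ^ 3 * ((q - 1) * (q + 1)))
    (hu : ∀ a b : F, Cond q a b → uEl hF a b ∈ H.map π)
    (ht : ∀ μ : Fˣ, hEl hF μ ∈ H.map π) :
    Set.InjOn π H ∧ ∀ g ∈ H, ∃ a b μ, Cond q a b ∧ π g = uEl hF a b * hEl hF μ := by
  classical
  let f : Pair F q × Fˣ → H.map π := fun x =>
    ⟨uEl hF x.1.1.1 x.1.1.2 * hEl hF x.2, mul_mem (hu _ _ x.1.2) (ht _)⟩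
  have hf : Function.Injective f := by
    intro x y hxy
    obtain ⟨h1, h2, h3⟩ := uEl_hEl_inj hF x.1.2 y.1.2 (congrArg Subtype.val hxy)
    exact Prod.ext (Subtype.ext (Prod.ext h1 h2)) h3
  let r : H → H.map π := fun x => ⟨π x, Subgroup.mem_map_of_mem π x.2⟩
  have hr : Function.Surjective r := by
    rintro ⟨_, x, hx, rfl⟩
    exact ⟨⟨x, hx⟩, rfl⟩
  haveI : Finite (H.map π) := Finite.of_surjective r hr
  have h1 := Nat.card_le_card_of_injective f hf
  have h2 := Nat.card_le_card_of_surjective r hr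
  rw [Nat.card_prod, card_units_eq hF] at h1
  have h3 : q ^ 3 * ((q - 1) * (q + 1)) ≤ Nat.card (Pair F q) * ((q - 1) * (q + 1)) :=
    Nat.mul_le_mul_right _ (card_pair hF)
  have hrb : Function.Bijective r :=
    (Nat.bijective_iff_surjective_and_card r).mpr ⟨hr, by omega⟩
  have hfb : Function.Bijective f := by
    refine (Nat.bijective_iff_injective_and_card f).mpr ⟨hf, ?_⟩
    rw [Nat.card_prod, card_units_eq hF]
    omega
  refine ⟨fun x hx y hy hxy => ?_, fun g hg => ?_⟩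
  · exact congrArg Subtype.val (hrb.1 (a₁ := ⟨x, hx⟩) (a₂ := ⟨y, hy⟩) (Subtype.ext hxy))
  · obtain ⟨x, hx⟩ := hfb.2 ⟨π g, Subgroup.mem_map_of_mem π hg⟩
    exact ⟨x.1.1.1, x.1.1.2, x.2, x.1.2, (congrArg Subtype.val hx).symm⟩

variable (ζ : Fˣ) (hζ : ∀ u : Fˣ, u ∈ Subgroup.zpowers ζ)
include hζ

theorem exists_base {a : F} (ha : a ≠ 0) :
    ∃ (i : ℕ) (μ : Fˣ), i < 3 ∧ (μ : F) ^ 2 / (μ : F) ^ q * (ζ : F) ^ i = a := by
  obtain ⟨n, hn⟩ := (mem_powers_iff_mem_zpowers).2 (hζ (Units.mk0 a ha))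
  refine ⟨n % 3, ζ ^ ((q + 2) * (n / 3)), Nat.mod_lt _ (by norm_num), ?_⟩
  have e : ((ζ ^ ((q + 2) * (n / 3)) : Fˣ) : F) ^ 2 / ((ζ ^ ((q + 2) * (n / 3)) : Fˣ) : F) ^ q =
      theta q ζ ^ ((q + 2) * (n / 3)) := by
    rw [theta, div_pow, Units.val_pow_eq_pow_val, ← pow_mul, ← pow_mul, ← pow_mul, ← pow_mul,
      mul_comm _ 2, mul_comm _ q]
  rw [e, pow_mul, theta_pow_succ_succ hF, ← pow_mul, ← pow_add, Nat.div_add_mod,
    ← Units.val_pow_eq_pow_val, show ζ ^ n = _ from hn, Units.val_mk0]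

theorem exists_eta_pow {b : F} (hb : b ≠ 0) : ∃ k : ℕ, -b / b ^ q = ((ζ : F) ^ q / ζ) ^ k := by
  have hbq : b ^ q ≠ 0 := pow_ne_zero _ hb
  have hne : -b / b ^ q ≠ 0 := div_ne_zero (neg_ne_zero.mpr hb) hbq
  obtain ⟨n, hn⟩ := (mem_powers_iff_mem_zpowers).2 (hζ (Units.mk0 _ hne))
  have hn' : -b / b ^ q = (ζ : F) ^ n := by
    rw [← Units.val_pow_eq_pow_val, show ζ ^ n = _ from hn, Units.val_mk0]
  have h1 : (ζ : F) ^ (n * (q + 1)) = 1 := by
    rw [pow_mul, ← hn', pow_succ, div_pow, neg_pow_q hF, pow_q_q hF]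
    field_simp
  have h2 := orderOf_dvd_of_pow_eq_one h1
  rw [orderOf_gen hF ζ hζ] at h2
  obtain ⟨k, rfl⟩ := Nat.dvd_of_mul_dvd_mul_right (Nat.succ_pos q) h2
  refine ⟨k, ?_⟩
  rw [hn', pow_mul]
  congr 1
  have := two_le_q hF
  rw [eq_div_iff ζ.ne_zero, ← pow_succ, Nat.sub_add_cancel (by omega)]

theorem eta_of_beta0 : -beta0 q ζ / beta0 q ζ ^ q = (ζ : F) ^ q / ζ := by
  have h1 := eta_ne_one hF ζ hζ (two_le_q hF)
  have hz0 : (ζ : F) ≠ 0 := ζ.ne_zero
  have hzq : (ζ : F) ^ q ≠ 0 := pow_ne_zero _ hz0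
  have h2 : (ζ : F) - (ζ : F) ^ q ≠ 0 := by
    intro h; rw [sub_eq_zero] at h; rw [← h, div_self hz0, sub_self] at h1; exact h1 rfl
  have h3 : (ζ : F) ^ q - (ζ : F) ≠ 0 := fun h => h2 (by linear_combination -h)
  unfold beta0
  rw [div_pow, sub_pow_q hF, div_pow, pow_q_q hF, one_pow]
  field_simp
  ring

theorem beta0_ne_zero : beta0 q ζ ≠ 0 :=
  div_ne_zero (div_ne_zero (pow_ne_zero _ ζ.ne_zero) ζ.ne_zero)
    (eta_ne_one hF ζ hζ (two_le_q hF))

/-- The base pairs of the Bruhat relators. -/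
theorem cond_bases (i : ℕ) :
    Cond q ((ζ : F) ^ i) (beta0 q ζ * ((ζ : F) ^ i * ((ζ : F) ^ i) ^ q)) := by
  have h := cond_base hF ζ hζ
  unfold Cond at *
  rw [one_pow, mul_one] at h
  rw [mul_pow, mul_pow, pow_q_q hF]
  linear_combination ((ζ : F) ^ i * ((ζ : F) ^ i) ^ q) * h

/-- The presentation. -/
theorem exists_presentation {p e : ℕ} [Fact p.Prime] [Algebra (ZMod p) F] (he : q = p ^ e)
    (h2 : q ≠ 2) :
    ∃ rels : Finset (FreeGroup (Fin 3)), rels.card ≤ 23 ∧
      Nonempty (PresentedGroup (↑rels : Set (FreeGroup (Fin 3))) ≃* GJ F q) := by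
  classical
  obtain ⟨α, LB, hlen, ⟨hsatB, hgives⟩, hroot⟩ := exists_borel_rels hF ζ hζ he h2
  set ψ := genHom hF ζ with hψ
  set S := Subgroup.closure ({gU, gH} : Set (FreeGroup (Fin 3))) with hS
  have hq2 := two_le_q hF
  set N := (q - 1) * (q + 1) with hN
  -- torus elements of the model
  have htor : ∀ μ : Fˣ, hEl hF μ ∈ S.map ψ := by
    intro μ
    obtain ⟨k, hk⟩ := (mem_powers_iff_mem_zpowers).2 (hζ μ)
    refine ⟨gH ^ k, pow_mem (Subgroup.subset_closure (by simp)) k, ?_⟩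
    rw [map_pow, hψ, genHom_H, ← map_pow, show ζ ^ k = μ from hk]
  obtain ⟨Wh, hWhS, hWh⟩ := htor (ζ ^ q)⁻¹
  have hpre : ∀ x : Pair F q, ∃ W ∈ S, ψ W = uEl hF x.1.1 x.1.2 := fun x => hroot _ _ x.2
  choose WX hWXS hWX using hpre
  choose WT hWTS hWT using htor
  -- the Bruhat relators
  have hb0 := beta0_ne_zero hF ζ hζ
  have hc0 := c0_trace hF ζ
  have hc0' : c0 q ζ ≠ 0 := theta_ne_conj hF ζ hζ h2
  let base : Fin 4 → Pair F q := fun i =>
    if h : (i : ℕ) < 3 then ⟨(_, _), cond_bases hF ζ hζ i⟩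
    else ⟨(0, c0 q ζ), cond_central.mpr hc0⟩
  have hbase : ∀ i, (base i).1.2 ≠ 0 := by
    intro i
    by_cases h : (i : ℕ) < 3
    · simp only [base, dif_pos h]
      exact mul_ne_zero hb0 (mul_ne_zero (pow_ne_zero _ ζ.ne_zero)
        (pow_ne_zero _ (pow_ne_zero _ ζ.ne_zero)))
    · simp only [base, dif_neg h]
      exact hc0'
  let bru : Fin 4 → FreeGroup (Fin 3) := fun i =>
    gW * WX (base i) * gW *
      (WX ⟨(_, _), (cond_bruhat hF (base i).2 (hbase i)).1⟩ *
        WT ((Units.mk0 _ (hbase i)) ^ q)⁻¹ * gW *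
        WX ⟨(_, _), (cond_bruhat hF (base i).2 (hbase i)).2⟩)⁻¹
  set L : List (FreeGroup (Fin 3)) :=
    LB ++ [gW * gW, gW * gH * gW * Wh⁻¹] ++ (List.finRange 4).map bru with hL
  have hlenL : L.length ≤ 23 := by simp [hL]; omega
  refine ⟨L.toFinset, (List.toFinset_card_le L).trans hlenL, ?_⟩
  set R : Set (FreeGroup (Fin 3)) := ↑L.toFinset with hR
  have hψgW : ψ gW = wEl hF := by rw [hψ, genHom_W]
  have hsat : ∀ r ∈ R, ψ r = 1 := by
    intro r hr
    have hr' : r ∈ L := by simpa [hR] using hr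
    rw [hL, List.mem_append, List.mem_append] at hr'
    rcases hr' with (hr' | hr') | hr'
    · exact hsatB r hr'
    · simp only [List.mem_cons, List.not_mem_nil, or_false] at hr'
      rcases hr' with rfl | rfl
      · rw [map_mul, hψgW, wEl_sq]
      · rw [map_mul, map_inv, mul_inv_eq_one, map_mul, map_mul, hψgW, hWh, hψ, genHom_H, wEl_conj]
    · obtain ⟨i, -, rfl⟩ := List.mem_map.mp hr'
      simp only [bru, map_mul, map_inv, hψgW, hWX, hWT]
      rw [mul_inv_eq_one, bruhat hF (base i).2 (hbase i), map_inv]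
  let π : PresentedGroup R →* GJ F q :=
    PresentedGroup.toGroup (f := ![uEl hF 1 (beta0 q ζ), hEl hF ζ, wEl hF]) hsat
  set φ := PresentedGroup.mk R with hφ
  have hπ : ∀ r, π (φ r) = ψ r := fun r => rfl
  have hrel : ∀ r ∈ L, φ r = 1 := fun r hr => PresentedGroup.one_of_mem (by simpa [hR] using hr)
  have D := hgives φ fun r hr => hrel r (by simp [hL, hr])
  obtain ⟨hHfin, hHcard⟩ := D.finite_and_card_le
  set u := φ gU with hu
  set h := φ gH with hh
  set w := φ gW with hw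
  set H := Subgroup.closure ({u, h} : Set (PresentedGroup R)) with hH
  haveI := hHfin
  have hmapS : S.map φ = H := by
    rw [hS, hH, MonoidHom.map_closure, Set.image_pair]
  have hSH : ∀ {W}, W ∈ S → φ W ∈ H := fun hW => hmapS ▸ Subgroup.mem_map_of_mem φ hW
  have hmapπ : ∀ {W}, W ∈ S → ψ W ∈ H.map π := fun {W} hW =>
    ⟨φ W, hSH hW, hπ W⟩
  have hHcard' : Nat.card H ≤ q ^ 3 * N := by
    refine hHcard.trans (le_of_eq ?_)
    rw [he, ← pow_add, ← pow_mul]
    ring
  obtain ⟨hinj, hform⟩ := borel_iso hF π H hHcard'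
    (fun a b hab => by rw [← hWX ⟨(a, b), hab⟩]; exact hmapπ (hWXS _))
    (fun μ => by rw [← hWT μ]; exact hmapπ (hWTS μ))
  -- lifts
  obtain ⟨X, hXdef⟩ : ∃ X : Pair F q → PresentedGroup R, ∀ x, X x = φ (WX x) := ⟨_, fun _ => rfl⟩
  obtain ⟨T, hTdef⟩ : ∃ T : Fˣ → PresentedGroup R, ∀ μ, T μ = φ (WT μ) := ⟨_, fun _ => rfl⟩
  have hXH : ∀ x, X x ∈ H := fun x => hXdef x ▸ hSH (hWXS x)
  have hTH : ∀ μ, T μ ∈ H := fun μ => hTdef μ ▸ hSH (hWTS μ)
  have hπX : ∀ x, π (X x) = uEl hF x.1.1 x.1.2 := fun x => by rw [hXdef, hπ, hWX]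
  have hπT : ∀ μ, π (T μ) = hEl hF μ := fun μ => by rw [hTdef, hπ, hWT]
  have heq : ∀ {x y}, x ∈ H → y ∈ H → π x = π y → x = y := fun hx hy => hinj hx hy
  have hw2 : w * w = 1 := by rw [hw, ← map_mul]; exact hrel _ (by simp [hL])
  have hwh : w * h * w = φ Wh := by
    rw [hw, hh, ← map_mul, ← map_mul, ← mul_inv_eq_one, ← map_inv, ← map_mul]
    exact hrel _ (by simp [hL])
  have hhH : h ∈ H := Subgroup.subset_closure (by simp)
  have huH : u ∈ H := Subgroup.subset_closure (by simp)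
  have hwT : ∀ μ, w * T μ * w = T (μ ^ q)⁻¹ := by
    intro μ
    obtain ⟨k, hk⟩ := (mem_powers_iff_mem_zpowers).2 (hζ μ)
    have hTk : T μ = h ^ k := heq (hTH μ) (pow_mem hhH k) (by
      rw [hπT, map_pow, hh, hπ, hψ, genHom_H, ← map_pow, show ζ ^ k = μ from hk])
    have hwk : ∀ n : ℕ, w * h ^ n * w = φ Wh ^ n := by
      intro n
      induction n with
      | zero => rw [pow_zero, mul_one, pow_zero, hw2]
      | succ n ih =>
        rw [pow_succ (φ Wh) n, ← ih, ← hwh,
          show w * h ^ n * w * (w * h * w) = w * h ^ n * (w * w) * (h * w) by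
            simp only [mul_assoc], hw2, mul_one, pow_succ]
        simp only [mul_assoc]
    rw [hTk, hwk]
    refine heq (pow_mem (hSH hWhS) k) (hTH _) ?_
    rw [map_pow, hπ, hWh, hπT, ← map_pow, ← show ζ ^ k = μ from hk, ← inv_pow, ← inv_pow,
      pow_right_comm, inv_pow]
  -- the exact Bruhat property
  let Good : Pair F q → Prop := fun x => ∀ hb : x.1.2 ≠ 0,
    w * X x * w = X ⟨(_, _), (cond_bruhat hF x.2 hb).1⟩ *
      T ((Units.mk0 _ hb) ^ q)⁻¹ * w * X ⟨(_, _), (cond_bruhat hF x.2 hb).2⟩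
  have hgood_base : ∀ i, Good (base i) := by
    intro i hb
    have h1 := hrel (bru i) (by simp [hL])
    simp only [bru, map_mul, map_inv, mul_inv_eq_one] at h1
    simp only [hXdef, hTdef]
    exact h1
  have hgood_conj : ∀ (x : Pair F q) (μ : Fˣ), Good x → Good ⟨(_, _), cond_smul hF μ x.2⟩ := by
    intro x μ hx hb
    have hb0' : x.1.2 ≠ 0 := right_ne_zero_of_mul hb
    set x' : Pair F q := ⟨(_, _), cond_smul hF μ x.2⟩ with hx'
    have hμ0 : (μ : F) ≠ 0 := μ.ne_zero
    have hμq : (μ : F) ^ q ≠ 0 := pow_ne_zero _ hμ0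
    set μ' : Fˣ := (μ ^ q)⁻¹ with hμ'
    have hinv : ((μ' ^ q)⁻¹ : Fˣ) = μ := Units.ext (by simp [hμ', inv_pow, pow_q_q hF])
    have e1 : X x' = T μ * X x * (T μ)⁻¹ :=
      heq (hXH _) (mul_mem (mul_mem (hTH μ) (hXH x)) (inv_mem (hTH μ))) (by
        rw [map_mul, map_mul, map_inv, hπX, hπX, hπT, hEl_conj hF μ x.2])
    set bl : Pair F q := ⟨(_, _), (cond_bruhat hF x.2 hb0').1⟩ with hbl
    set br : Pair F q := ⟨(_, _), (cond_bruhat hF x.2 hb0').2⟩ with hbr
    set bl' : Pair F q := ⟨(_, _), (cond_bruhat hF x'.2 hb).1⟩ with hbl'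
    set br' : Pair F q := ⟨(_, _), (cond_bruhat hF x'.2 hb).2⟩ with hbr'
    have e2 : X br' = T μ' * X br * (T μ')⁻¹ :=
      heq (hXH _) (mul_mem (mul_mem (hTH μ') (hXH _)) (inv_mem (hTH μ'))) (by
        rw [map_mul, map_mul, map_inv, hπX, hπX, hπT, hEl_conj hF μ' br.2]
        congr 1 <;> simp [hbr, hbr', hx', hμ', inv_pow, pow_q_q hF] <;> field_simp)
    have e3 : X bl' * T ((Units.mk0 _ hb) ^ q)⁻¹ =
        T μ' * X bl * T ((Units.mk0 _ hb0') ^ q)⁻¹ * (T μ)⁻¹ :=
      heq (mul_mem (hXH _) (hTH _))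
        (mul_mem (mul_mem (mul_mem (hTH μ') (hXH _)) (hTH _)) (inv_mem (hTH μ))) (by
        rw [map_mul, map_mul, map_mul, map_mul, map_inv, hπX, hπX, hπT, hπT, hπT, hπT,
          show hEl hF μ' * uEl hF bl.1.1 bl.1.2 = (hEl hF μ' * uEl hF bl.1.1 bl.1.2 *
            (hEl hF μ')⁻¹) * hEl hF μ' by rw [inv_mul_cancel_right],
          hEl_conj hF μ' bl.2, mul_assoc, mul_assoc, ← map_inv, ← map_mul, ← map_mul]
        congr 1
        · congr 1 <;> simp [hbl, hbl', hx', hμ', inv_pow, pow_q_q hF] <;> field_simp <;>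
            simp only [mul_pow, pow_q_q hF] <;> ring
        · congr 1
          refine Units.ext ?_
          simp [hx', hμ', inv_pow, pow_q_q hF, mul_pow]
          field_simp)
    have e4 : w * T μ = T μ' * w := by
      calc w * T μ = (w * T μ * w) * w := by rw [mul_assoc (w * T μ), hw2, mul_one]
        _ = T μ' * w := by rw [hwT]
    have e5 : (T μ)⁻¹ * w = w * (T μ')⁻¹ := by
      have h4 : w * T μ' = T μ * w := by
        calc w * T μ' = (w * T μ' * w) * w := by rw [mul_assoc (w * T μ'), hw2, mul_one]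
          _ = T μ * w := by rw [hwT, hinv]
      rw [inv_mul_eq_iff_eq_mul, ← mul_assoc, eq_mul_inv_iff_mul_eq, h4]
    calc w * X x' * w = (w * T μ) * X x * ((T μ)⁻¹ * w) := by rw [e1]; group
      _ = T μ' * (w * X x * w) * (T μ')⁻¹ := by rw [e4, e5]; group
      _ = T μ' * (X bl * T ((Units.mk0 _ hb0') ^ q)⁻¹ * w * X br) * (T μ')⁻¹ := by rw [hx hb0']
      _ = (T μ' * X bl * T ((Units.mk0 _ hb0') ^ q)⁻¹ * (T μ)⁻¹) * (T μ * w) *
            X br * (T μ')⁻¹ := by group
      _ = (T μ' * X bl * T ((Units.mk0 _ hb0') ^ q)⁻¹ * (T μ)⁻¹) * w *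
            (T μ' * X br * (T μ')⁻¹) := by
          have h4 : T μ * w = w * T μ' := by
            calc T μ * w = w * (w * T μ * w) := by
                  rw [← mul_assoc, ← mul_assoc, hw2, one_mul]
              _ = w * T μ' := by rw [hwT]
          rw [h4]; group
      _ = X bl' * T ((Units.mk0 _ hb) ^ q)⁻¹ * w * X br' := by rw [← e2, ← e3]
  have hgood_of : ∀ (x : Pair F q) (i : Fin 4) (μ : Fˣ),
      x.1.1 = (μ : F) ^ 2 / (μ : F) ^ q * (base i).1.1 →
      x.1.2 = (μ : F) ^ q * μ * (base i).1.2 → Good x := by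
    intro x i μ h1 h3
    have : x = ⟨(_, _), cond_smul hF μ (base i).2⟩ := Subtype.ext (Prod.ext h1 h3)
    rw [this]
    exact hgood_conj _ _ (hgood_base i)
  -- the central ones
  have hgood_zero : ∀ (c : F) (hc : Cond q 0 c), Good ⟨(0, c), hc⟩ := by
    intro c hc hcne
    have hct : c + c ^ q = 0 := cond_central.mp hc
    have hfix : (c / c0 q ζ) ^ q = c / c0 q ζ := by
      rw [div_pow, eq_neg_of_add_eq_zero_right hct, eq_neg_of_add_eq_zero_right hc0, neg_div_neg_eq]
    obtain ⟨k, hk⟩ := exists_nu_pow hF ζ hζ hfix (div_ne_zero hcne hc0')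
    refine hgood_of ⟨(0, c), hc⟩ 3 (ζ ^ k) (by simp [base]) ?_ hcne
    simp only [base, show ¬ ((3 : Fin 4) : ℕ) < 3 by decide, dif_neg, not_false_iff]
    rw [Units.val_pow_eq_pow_val, ← pow_mul (ζ : F), mul_comm k q, pow_mul, ← mul_pow,
      show (ζ : F) ^ q * ζ = nu q ζ from rfl, ← hk, div_mul_cancel₀ _ hc0']
  -- every root element
  let Bru : Pair F q → Prop := fun x => ∃ y ∈ H, ∃ y' ∈ H, w * X x * w = y * w * y'
  have hgood_bru : ∀ x : Pair F q, Good x → x.1.2 ≠ 0 → Bru x := fun x hx hb =>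
    ⟨_, mul_mem (hXH _) (hTH _), _, hXH _, hx hb⟩
  have hbru_nonzero : ∀ k : ℕ, ∀ x : Pair F q, x.1.1 ≠ 0 →
      -x.1.2 / x.1.2 ^ q = ((ζ : F) ^ q / ζ) ^ k → Bru x := by
    intro k
    induction k with
    | zero =>
      rintro ⟨⟨a, b⟩, hab⟩ ha hy
      exfalso
      simp only [pow_zero] at hy ha
      have hb : b ≠ 0 := fun h => by rw [h, neg_zero, zero_div] at hy; exact zero_ne_one hy
      rw [div_eq_one_iff_eq (pow_ne_zero _ hb)] at hy
      have h' : b + b ^ q + a * a ^ q = 0 := hab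
      rw [← hy, add_neg_cancel, zero_add] at h'
      exact (mul_ne_zero ha (pow_ne_zero _ ha)) h'
    | succ k ih =>
      rintro ⟨⟨a, b⟩, hab⟩ ha hy
      simp only at ha hy
      obtain ⟨i, μ, hi, hμ⟩ := exists_base hF ζ hζ ha
      set b1 := (μ : F) ^ q * μ * (base ⟨i, by omega⟩).1.2 with hb1
      have hμ0 : (μ : F) ≠ 0 := μ.ne_zero
      have hbi : (base ⟨i, by omega⟩).1.1 = (ζ : F) ^ i ∧ (base ⟨i, by omega⟩).1.2 =
          beta0 q ζ * ((ζ : F) ^ i * ((ζ : F) ^ i) ^ q) := by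
        simp [base, hi]
      have hab1 : Cond q a b1 := by
        have := cond_smul hF μ (base ⟨i, by omega⟩).2
        rwa [hbi.1, hμ] at this
      have hG : Good ⟨(a, b1), hab1⟩ := hgood_of _ ⟨i, by omega⟩ μ (by rw [hbi.1, hμ]) rfl
      have hb1ne : b1 ≠ 0 :=
        mul_ne_zero (mul_ne_zero (pow_ne_zero _ hμ0) hμ0) (hbase _)
      have hy1 : -b1 / b1 ^ q = (ζ : F) ^ q / ζ := by
        rw [← eta_of_beta0 hF ζ hζ, hb1, hbi.2]
        have hbq : beta0 q ζ ^ q ≠ 0 := pow_ne_zero _ hb0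
        have hzi : (ζ : F) ^ i ≠ 0 := pow_ne_zero _ ζ.ne_zero
        have hziq : ((ζ : F) ^ i) ^ q ≠ 0 := pow_ne_zero _ hzi
        have hμq : (μ : F) ^ q ≠ 0 := pow_ne_zero _ hμ0
        simp only [mul_pow, pow_q_q hF]
        field_simp
      have hb : b ≠ 0 := fun h => by
        rw [h, neg_zero, zero_div] at hy
        exact pow_ne_zero (k + 1) (div_ne_zero (pow_ne_zero q ζ.ne_zero) ζ.ne_zero) hy.symm
      by_cases hbb : b = b1
      · subst hbb; exact hgood_bru _ hG hb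
      set c := b - b1 with hc
      have hc0c : c ≠ 0 := sub_ne_zero.mpr hbb
      have hct : c + c ^ q = 0 := by
        have h1 : b + b ^ q + a * a ^ q = 0 := hab
        have h3 : b1 + b1 ^ q + a * a ^ q = 0 := hab1
        rw [hc, sub_pow_q hF]
        linear_combination h1 - h3
      set z : Pair F q := ⟨(0, c), cond_central.mpr hct⟩ with hz
      have hGz : Good z := hgood_zero c _
      set x : Pair F q := ⟨(a, b), hab⟩
      set x1 : Pair F q := ⟨(a, b1), hab1⟩
      set zl : Pair F q := ⟨(_, _), (cond_bruhat hF z.2 hc0c).1⟩ with hzl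
      set zr : Pair F q := ⟨(_, _), (cond_bruhat hF z.2 hc0c).2⟩ with hzr
      set xl : Pair F q := ⟨(_, _), (cond_bruhat hF x1.2 hb1ne).1⟩ with hxl
      set xr : Pair F q := ⟨(_, _), (cond_bruhat hF x1.2 hb1ne).2⟩ with hxr
      have hmid : Cond q (-a / b1 ^ q) (c⁻¹ + b1⁻¹) := by
        have := cond_add hF zr.2 xl.2
        simpa [hzr, hxl, hz, x1, zero_pow_q hF] using this
      have hb1q : b1 ^ q ≠ 0 := pow_ne_zero _ hb1ne
      have hcq : c ^ q = -c := eq_neg_of_add_eq_zero_right hct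
      have hsum : c⁻¹ + b1⁻¹ = b / (b1 * c) := by
        rw [eq_div_iff (mul_ne_zero hb1ne hc0c), hc]
        field_simp
        ring
      have hym : -(c⁻¹ + b1⁻¹) / (c⁻¹ + b1⁻¹) ^ q = ((ζ : F) ^ q / ζ) ^ k := by
        have e1 : -(c⁻¹ + b1⁻¹) / (c⁻¹ + b1⁻¹) ^ q = (-b / b ^ q) / (-b1 / b1 ^ q) := by
          rw [hsum, div_pow, mul_pow, hcq]
          have hbq : b ^ q ≠ 0 := pow_ne_zero _ hb
          field_simp
        rw [e1, hy, hy1, pow_succ, mul_div_assoc, div_self
          (div_ne_zero (pow_ne_zero q ζ.ne_zero) ζ.ne_zero), mul_one]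
      obtain ⟨y, hyH, y', hy'H, hmidB⟩ := ih ⟨(_, _), hmid⟩
        (div_ne_zero (neg_ne_zero.mpr ha) hb1q) hym
      have e0 : X x = X z * X x1 := heq (hXH _) (mul_mem (hXH _) (hXH _)) (by
        rw [map_mul, hπX, hπX, hπX, uEl_mul hF z.2 x1.2]
        simp [x, x1, hz, hc])
      have e1 : X ⟨(_, _), hmid⟩ = X zr * X xl := heq (hXH _) (mul_mem (hXH _) (hXH _)) (by
        rw [map_mul, hπX, hπX, hπX, uEl_mul hF zr.2 xl.2]
        simp [hzr, hxl, hz, x1, zero_pow_q hF])
      set μz : Fˣ := ((Units.mk0 _ hc0c : Fˣ) ^ q)⁻¹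
      set μx : Fˣ := ((Units.mk0 _ hb1ne : Fˣ) ^ q)⁻¹
      refine ⟨X zl * T μz * y, mul_mem (mul_mem (hXH _) (hTH _)) hyH,
        y' * T (μx ^ q)⁻¹ * X xr, mul_mem (mul_mem hy'H (hTH _)) (hXH _), ?_⟩
      calc w * X x * w = (w * X z * w) * (w * X x1 * w) := by
            rw [e0, show w * X z * w * (w * X x1 * w) = w * X z * (w * w) * (X x1 * w) by
              simp only [mul_assoc], hw2, mul_one]
            simp only [mul_assoc]
        _ = (X zl * T μz * w * X zr) * (X xl * T μx * w * X xr) := by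
            rw [hGz hc0c, hG hb1ne]
        _ = X zl * T μz * (w * (X zr * X xl) * w) * (w * T μx * w) * X xr := by
            rw [show X zl * T μz * (w * (X zr * X xl) * w) * (w * T μx * w) * X xr =
              X zl * T μz * w * (X zr * X xl) * (w * w) * (T μx * w * X xr) by
                simp only [mul_assoc], hw2, mul_one]
            simp only [mul_assoc]
        _ = _ := by rw [← e1, hmidB, hwT]; simp only [mul_assoc]
  have hbru : ∀ x : Pair F q, x.1.2 ≠ 0 → Bru x := by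
    intro x hb
    by_cases ha : x.1.1 = 0
    · obtain ⟨⟨a, b⟩, hab⟩ := x
      simp only at ha
      subst ha
      exact hgood_bru _ (hgood_zero b hab) hb
    · obtain ⟨k, hk⟩ := exists_eta_pow hF ζ hζ hb
      exact hbru_nonzero k x ha hk
  -- the normal form
  have hnf : ∀ g ∈ H, ∃ x μ, g = X x * T μ := by
    intro g hg
    obtain ⟨a, b, μ, hab, he'⟩ := hform g hg
    exact ⟨⟨(a, b), hab⟩, μ, heq hg (mul_mem (hXH _) (hTH _)) (by rw [map_mul, hπX, hπT, he'])⟩
  let E : Set (PresentedGroup R) :=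
    {g | g ∈ H ∨ ∃ y ∈ H, ∃ x, g = y * w * X x}
  have hEH : ∀ g ∈ E, ∀ y ∈ H, g * y ∈ E := by
    rintro g (hg | ⟨y0, hy0, x, rfl⟩) y hy
    · exact Or.inl (mul_mem hg hy)
    · obtain ⟨x', μ, he'⟩ := hnf _ (mul_mem (hXH x) hy)
      refine Or.inr ?_
      obtain ⟨x'', hx''⟩ : ∃ x'', X x'' = (T μ)⁻¹ * X x' * T μ := by
        refine ⟨⟨(_, _), cond_smul hF μ⁻¹ x'.2⟩, heq (hXH _)
          (mul_mem (mul_mem (inv_mem (hTH μ)) (hXH _)) (hTH μ)) ?_⟩
        rw [map_mul, map_mul, map_inv, hπX, hπX, hπT, ← hEl_conj hF μ⁻¹ x'.2, map_inv, inv_inv]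
      refine ⟨y0 * T (μ ^ q)⁻¹, mul_mem hy0 (hTH _), x'', ?_⟩
      calc y0 * w * X x * y = y0 * w * (X x' * T μ) := by rw [mul_assoc _ (X x), he']
        _ = y0 * (w * T μ * w) * w * X x'' := by
            rw [hx'', show y0 * (w * T μ * w) * w * ((T μ)⁻¹ * X x' * T μ) =
              y0 * (w * T μ * (w * w)) * ((T μ)⁻¹ * X x' * T μ) by simp only [mul_assoc], hw2]
            group
        _ = y0 * T (μ ^ q)⁻¹ * w * X x'' := by rw [hwT]
  have hEw : ∀ g ∈ E, g * w ∈ E := by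
    have hX0 : ∀ x : Pair F q, x.1.2 = 0 → X x = 1 := by
      rintro ⟨⟨a, b⟩, hab⟩ hb
      simp only at hb
      subst hb
      have ha : a = 0 := by
        have h' : (0 : F) + 0 ^ q + a * a ^ q = 0 := hab
        rw [zero_pow_q hF, zero_add, zero_add] at h'
        rcases mul_eq_zero.mp h' with h | h
        · exact h
        · exact eq_zero_of_pow_eq_zero h
      refine heq (hXH _) (one_mem _) ?_
      rw [hπX, map_one]
      subst ha
      exact uEl_zero hF
    rintro g (hg | ⟨y0, hy0, x, rfl⟩)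
    · exact Or.inr ⟨g, hg, ⟨(0, 0), cond_zero hF⟩, by rw [hX0 _ rfl, mul_one]⟩
    · by_cases hb : x.1.2 = 0
      · rw [hX0 x hb, mul_one, mul_assoc, hw2, mul_one]; exact Or.inl hy0
      · obtain ⟨y, hy, y', hy', he'⟩ := hbru x hb
        rw [show y0 * w * X x * w = (y0 * y * w) * y' by
          calc y0 * w * X x * w = y0 * (w * X x * w) := by group
            _ = _ := by rw [he']; group]
        refine hEH _ (Or.inr ⟨y0 * y, mul_mem hy0 hy, ⟨(0, 0), cond_zero hF⟩, ?_⟩) y' hy'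
        rw [hX0 _ rfl, mul_one]
  have hall : ∀ g, g ∈ E := by
    intro g
    have hg : g ∈ Subgroup.closure (Set.range (PresentedGroup.of (rels := R))) := by
      rw [PresentedGroup.closure_range_of]; trivial
    induction hg using Subgroup.closure_induction_right with
    | one => exact Or.inl (one_mem _)
    | mul_right g _ y hy ih =>
      obtain ⟨i, rfl⟩ := hy
      fin_cases i
      · exact hEH g ih u huH
      · exact hEH g ih h hhH
      · exact hEw g ih
    | mul_inv_cancel g _ y hy ih =>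
      obtain ⟨i, rfl⟩ := hy
      fin_cases i
      · exact hEH g ih u⁻¹ (inv_mem huH)
      · exact hEH g ih h⁻¹ (inv_mem hhH)
      · have hwi : w⁻¹ = w := inv_eq_of_mul_eq_one_right hw2
        show g * w⁻¹ ∈ E
        rw [hwi]
        exact hEw g ih
  haveI : Finite (Pair F q) := Subtype.finite
  let f : Option (Pair F q) × H → PresentedGroup R := fun a =>
    a.1.elim (a.2 : PresentedGroup R) (fun x => (a.2 : PresentedGroup R) * w * X x)
  have hfsurj : Function.Surjective f := by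
    intro g
    rcases hall g with hg | ⟨y, hy, x, rfl⟩
    · exact ⟨(none, ⟨g, hg⟩), rfl⟩
    · exact ⟨(some x, ⟨y, hy⟩), rfl⟩
  have hπw : π w = wEl hF := by rw [hw, hπ, hψgW]
  have hfinj : Function.Injective (π ∘ f) := by
    have hcell : ∀ (y : H) (y' : H) (x : Pair F q),
        π (y : PresentedGroup R) ≠ π (y' : PresentedGroup R) * wEl hF * uEl hF x.1.1 x.1.2 := by
      intro y y' x he'
      obtain ⟨a, b, μ, hab, h1⟩ := hform _ (mul_mem (inv_mem y'.2)
        (mul_mem y.2 (inv_mem (hXH x))))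
      rw [map_mul, map_mul, map_inv, map_inv, hπX, he', mul_inv_cancel_right,
        inv_mul_cancel_left] at h1
      have h3 := congrFun (congrFun (congrArg mat h1) 2) 0
      rw [mat_mul, mat_uEl hF hab, mat_hEl, mat_wEl] at h3
      simp [uMat, hMat, wMat, Matrix.mul_apply, Fin.sum_univ_three] at h3
    rintro ⟨ox, y⟩ ⟨ox', y'⟩ he'
    rcases ox with _ | x <;> rcases ox' with _ | x' <;>
      simp only [Function.comp_apply, f, Option.elim, map_mul, hπw, hπX] at he'
    · exact Prod.ext rfl (Subtype.ext (heq y.2 y'.2 he'))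
    · exact absurd he' (hcell y y' x')
    · exact absurd he'.symm (hcell y' y x)
    · have h1 : wEl hF * (uEl hF x.1.1 x.1.2 * (uEl hF x'.1.1 x'.1.2)⁻¹) * wEl hF =
          (π (y : PresentedGroup R))⁻¹ * π (y' : PresentedGroup R) := by
        have := congrArg (fun g => (π (y : PresentedGroup R))⁻¹ * g *
          (uEl hF x'.1.1 x'.1.2)⁻¹ * wEl hF) he'
        simp only [mul_assoc, inv_mul_cancel_left] at this
        simp only [mul_assoc]
        rw [this, mul_inv_cancel_left, wEl_sq, mul_one]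
      obtain ⟨a, b, μ, hab, h3⟩ := hform _ (mul_mem (inv_mem y.2) y'.2)
      rw [map_mul, map_inv] at h3
      rw [h3, uEl_inv hF x'.2, uEl_mul hF x.2 (cond_inv hF x'.2)] at h1
      have hd := cond_add hF x.2 (cond_inv hF x'.2)
      have h4 := congrArg mat h1
      rw [mat_mul, mat_mul, mat_mul, mat_uEl hF hd, mat_uEl hF hab, mat_hEl, mat_wEl] at h4
      have h20 := congrFun (congrFun h4 2) 0
      have h10 := congrFun (congrFun h4 1) 0
      simp [uMat, hMat, wMat, Matrix.mul_apply, Fin.sum_univ_three] at h20 h10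
      have hax : x.1.1 = x'.1.1 := by
        have h5 : x.1.1 + -x'.1.1 = 0 := by
          first
            | exact h10
            | exact h10.1
        linear_combination h5
      have hbx : x.1.2 = x'.1.2 := by
        have h' : x'.1.2 + x'.1.2 ^ q + x'.1.1 * x'.1.1 ^ q = 0 := x'.2
        rw [neg_pow_q hF, hax] at h20
        linear_combination h20 - h'
      have hxx : x = x' := Subtype.ext (Prod.ext hax hbx)
      subst hxx
      exact Prod.ext rfl (Subtype.ext (heq y.2 y'.2 (mul_right_cancel (mul_right_cancel he'))))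
  have hcard : Nat.card (GJ F q) ≤ Nat.card (Option (Pair F q) × H) := by
    have h1 := card_pair hF
    have h3 : q ^ 3 * N ≤ Nat.card H := by
      have hle : Nat.card (Pair F q × Fˣ) ≤ Nat.card H := by
        refine Nat.card_le_card_of_injective
          (fun a => (⟨X a.1 * T a.2, mul_mem (hXH _) (hTH _)⟩ : H)) fun a b hab => ?_
        have := congrArg (fun z : H => π (z : PresentedGroup R)) hab
        simp only [map_mul, hπX, hπT] at this
        obtain ⟨e1, e2, e3⟩ := uEl_hEl_inj hF a.1.2 b.1.2 this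
        exact Prod.ext (Subtype.ext (Prod.ext e1 e2)) e3
      rw [Nat.card_prod, card_units_eq hF] at hle
      exact (Nat.mul_le_mul_right _ h1).trans hle
    rw [card_GJ hF, Nat.card_prod, Finite.card_option]
    calc q ^ 3 * (q ^ 2 - 1) * (q ^ 3 + 1) = (q ^ 3 + 1) * (q ^ 3 * N) := by
          rw [hN, show q ^ 2 - 1 = (q - 1) * (q + 1) by
            rw [← Nat.mul_comm (q + 1), ← Nat.sq_sub_sq, one_pow]]
          ring
      _ ≤ _ := Nat.mul_le_mul (by omega) h3
  have hbij : Function.Bijective (π ∘ f) :=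
    (Nat.bijective_iff_injective_and_card _).mpr
      ⟨hfinj, le_antisymm (Nat.card_le_card_of_injective _ hfinj) hcard⟩
  have hπbij : Function.Bijective π := by
    refine ⟨fun a b hab => ?_, fun g => ?_⟩
    · obtain ⟨a', rfl⟩ := hfsurj a
      obtain ⟨b', rfl⟩ := hfsurj b
      rw [hbij.1 hab]
    · obtain ⟨a, ha⟩ := hbij.2 g
      exact ⟨f a, ha⟩
  exact ⟨MulEquiv.ofBijective π hπbij⟩

end CfsgLib.SUThreePres
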